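import Mathlib
import Cfsg.Agent.Lib.Invol.StronglyEmbedded

/-!
# Binary actions (relational complexity two): general lemmas
-/

set_option autoImplicit false

namespace H41.BA

open MulAction

/-- the action of `G` on `Ω` is binary -/
def Bin (G Ω : Type*) [Group G] [MulAction G Ω] : Prop :=
  ∀ (n : ℕ) (I J : Fin n → Ω), 2 ≤ n →
    (∀ i j : Fin n, i ≠ j → ∃ g : G, g • I i = J i ∧ g • I j = J j) → ∃ g : G, ∀ i, g • I i = J i

variable {G Ω : Type*} [Group G] [MulAction G Ω]

theorem Bin.fintype (hB : Bin G Ω) {ι : Type*} [Fintype ι] (h2 : 2 ≤ Fintype.card ι)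
    (I J : ι → Ω) (h : ∀ i j, i ≠ j → ∃ g : G, g • I i = J i ∧ g • I j = J j) :
    ∃ g : G, ∀ i, g • I i = J i := by
  let e := Fintype.equivFin ι
  obtain ⟨g, hg⟩ := hB _ (I ∘ e.symm) (J ∘ e.symm) h2
    (fun i j hij => h _ _ (fun e' => hij (e.symm.injective e')))
  exact ⟨g, fun i => by simpa using hg (e i)⟩

theorem Bin.of_set (hB : Bin G Ω) [Finite Ω] (S : Set Ω) (τ : Ω → Ω)
    (h : ∀ x ∈ S, ∀ y ∈ S, ∃ g : G, g • x = τ x ∧ g • y = τ y) : ∃ g : G, ∀ x ∈ S, g • x = τ x := by
  classical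
  rcases S.eq_empty_or_nonempty with rfl | ⟨x₀, hx₀⟩
  · exact ⟨1, by simp⟩
  have := Fintype.ofFinite S
  have hc : 2 ≤ Fintype.card (S × Fin 2) := by
    have : 0 < Fintype.card S := Fintype.card_pos_iff.mpr ⟨⟨x₀, hx₀⟩⟩
    rw [Fintype.card_prod, Fintype.card_fin]; omega
  obtain ⟨g, hg⟩ := hB.fintype hc (fun i => (i.1 : Ω)) (fun i => τ i.1)
    (fun i j _ => h _ i.1.2 _ j.1.2)
  exact ⟨g, fun x hx => hg (⟨x, hx⟩, 0)⟩

theorem Bin.tri (hB : Bin G Ω) {α β γ : Ω} {a b : G} (ha : a • α = α) (hb : b • β = β)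
    (h : a • γ = b • γ) : ∃ k : G, k • α = α ∧ k • β = β ∧ k • γ = a • γ := by
  obtain ⟨k, hk⟩ := hB 3 ![α, β, γ] ![α, β, a • γ] (by norm_num) (by
    intro i j hij
    fin_cases i <;> fin_cases j <;> first
      | exact absurd rfl hij
      | (refine ⟨1, ?_⟩; simp; done)
      | (refine ⟨a, ?_⟩; simp [ha]; done)
      | (refine ⟨b, ?_⟩; simp [hb, h]; done))
  exact ⟨k, by simpa using hk 0, by simpa using hk 1, by simpa using hk 2⟩

theorem Bin.quad (hB : Bin G Ω) {α β γ ε : Ω} {a b : G} (ha : a • α = α) (ha' : a • β = β)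
    (hb : b • γ = γ) (h : a • ε = b • ε) :
    ∃ k : G, k • α = α ∧ k • β = β ∧ k • γ = γ ∧ k • ε = a • ε := by
  obtain ⟨k, hk⟩ := hB 4 ![α, β, γ, ε] ![α, β, γ, a • ε] (by norm_num) (by
    intro i j hij
    fin_cases i <;> fin_cases j <;> first
      | exact absurd rfl hij
      | (refine ⟨1, ?_⟩; simp; done)
      | (refine ⟨a, ?_⟩; simp [ha, ha']; done)
      | (refine ⟨b, ?_⟩; simp [hb, h]; done))
  exact ⟨k, by simpa using hk 0, by simpa using hk 1, by simpa using hk 2, by simpa using hk 3⟩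

/-- conjugated form of `tri`: `a b c = 1` with `a, b, c` in three point stabilisers -/
theorem Bin.tri' (hB : Bin G Ω) {α β γ : Ω} {a b c : G} (ha : a • α = α) (hb : b • β = β)
    (hc : c • γ = γ) (h : a * b * c = 1) :
    ∃ k : G, k • α = α ∧ k • β = β ∧ (a * k) • γ = γ := by
  have ha' : a⁻¹ • α = α := by rw [inv_smul_eq_iff, ha]
  have e : a⁻¹ • γ = b • γ := by
    rw [inv_smul_eq_iff, ← mul_smul, eq_inv_of_mul_eq_one_left h, eq_comm, inv_smul_eq_iff, hc]
  obtain ⟨k, h1, h2, h3⟩ := hB.tri ha' hb e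
  exact ⟨k, h1, h2, by rw [mul_smul, h3, smul_inv_smul]⟩

/-- transport along a surjective homomorphism -/
theorem bin_compHom {K : Type*} [Group K] (φ : K →* G) (hφ : Function.Surjective φ) :
    @Bin K Ω _ (MulAction.compHom Ω φ) ↔ Bin G Ω := by
  constructor
  · intro h n I J hn H
    obtain ⟨k, hk⟩ := h n I J hn (fun i j hij => by
      obtain ⟨g, h1, h2⟩ := H i j hij
      obtain ⟨k, rfl⟩ := hφ g
      exact ⟨k, h1, h2⟩)
    exact ⟨φ k, hk⟩
  · intro h n I J hn H
    obtain ⟨g, hg⟩ := h n I J hn (fun i j hij => by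
      obtain ⟨k, h1, h2⟩ := H i j hij
      exact ⟨φ k, h1, h2⟩)
    obtain ⟨k, rfl⟩ := hφ g
    exact ⟨k, hg⟩

theorem ncard_fixedBy_conj (g x : G) :
    (fixedBy Ω (g * x * g⁻¹)).ncard = (fixedBy Ω x).ncard := by
  have : fixedBy Ω (g * x * g⁻¹) = (fun a => g • a) '' fixedBy Ω x := by
    ext a
    simp only [mem_fixedBy, Set.mem_image]
    constructor
    · intro h
      refine ⟨g⁻¹ • a, ?_, smul_inv_smul _ _⟩
      rw [mul_smul, mul_smul] at h
      rw [eq_inv_smul_iff, h]
    · rintro ⟨b, hb, rfl⟩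
      rw [mul_smul, mul_smul, inv_smul_smul, hb]
  rw [this, Set.ncard_image_of_injective _ (MulAction.injective g)]

theorem ncard_fixedBy_of_isConj {x y : G} (h : IsConj x y) :
    (fixedBy Ω x).ncard = (fixedBy Ω y).ncard := by
  obtain ⟨c, rfl⟩ := isConj_iff.mp h
  exact (ncard_fixedBy_conj c x).symm

/-- one class of involutions -/
def OneCl (G : Type*) [Group G] : Prop := ∀ s t : G, orderOf s = 2 → orderOf t = 2 → IsConj s t

/-- commuting involutions have the same fixed points -/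
theorem Bin.fix_of_commute (hB : Bin G Ω) [Finite G] [Finite Ω] (hone : OneCl G) {g h : G}
    (hg : orderOf g = 2) (hh : orderOf h = 2) (hc : Commute g h) {x : Ω} (hx : g • x = x) :
    h • x = x := by
  classical
  by_cases hgh : g = h
  · rwa [← hgh]
  have g2 := H9.mul_self_of_orderOf_two hg
  have h2 := H9.mul_self_of_orderOf_two hh
  have hgh2 : orderOf (g * h) = 2 := by
    refine H9.orderOf_eq_two_of_mul_self (fun e => hgh ?_) ?_
    · rw [eq_inv_of_mul_eq_one_left e, H9.inv_eq_of_orderOf_two hh]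
    · calc g * h * (g * h) = g * (h * g) * h := by group
        _ = (g * g) * (h * h) := by rw [← hc.eq]; group
        _ = 1 := by rw [g2, h2, one_mul]
  have gg : ∀ y : Ω, g • g • y = y := fun y => by rw [← mul_smul, g2, one_smul]
  have key : ∀ y : Ω, (g * h) • y = y → h • y = g • y := fun y hy => by
    rw [mul_smul] at hy
    rw [← gg (h • y), hy]
  let τ : Ω → Ω := fun y => if (g * h) • y = y then g • y else y
  have τg : ∀ y, g • y = y → τ y = y := fun y hy => by simp only [τ]; split_ifs <;> simp [hy]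
  have τh : ∀ y, h • y = y → τ y = y := fun y hy => by
    simp only [τ]; split_ifs with h'
    · rw [← key y h', hy]
    · rfl
  have τk : ∀ y, (g * h) • y = y → τ y = g • y := fun y hy => by simp only [τ, hy, if_true]
  obtain ⟨k, hk⟩ := hB.of_set {y | g • y = y ∨ h • y = y ∨ (g * h) • y = y} τ (by
    rintro y (hy | hy | hy) z (hz | hz | hz)
    · exact ⟨1, by simp [τg y hy], by simp [τg z hz]⟩
    · exact ⟨1, by simp [τg y hy], by simp [τh z hz]⟩
    · exact ⟨g, by rw [τg y hy, hy], by rw [τk z hz]⟩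
    · exact ⟨1, by simp [τh y hy], by simp [τg z hz]⟩
    · exact ⟨1, by simp [τh y hy], by simp [τh z hz]⟩
    · exact ⟨h, by rw [τh y hy, hy], by rw [τk z hz, key z hz]⟩
    · exact ⟨g, by rw [τk y hy], by rw [τg z hz, hz]⟩
    · exact ⟨h, by rw [τk y hy, key y hy], by rw [τh z hz, hz]⟩
    · exact ⟨g, by rw [τk y hy], by rw [τk z hz]⟩)
  by_cases hA : ∀ y : Ω, (g * h) • y = y → g • y = y
  · have e : fixedBy Ω (g * h) = fixedBy Ω g :=
      Set.eq_of_subset_of_ncard_le (fun y hy => hA y hy)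
        (ncard_fixedBy_of_isConj (hone _ _ hg hgh2)).le
    have : (g * h) • x = x := by
      have : x ∈ fixedBy Ω g := hx
      rw [← e] at this; exact this
    rw [key x this, hx]
  · push Not at hA
    obtain ⟨y, hy, hy'⟩ := hA
    have hgy : (g * h) • g • y = g • y := by
      rw [← mul_smul, show g * h * g = g * (g * h) by rw [mul_assoc, ← hc.eq], mul_smul, hy]
    have ky : k • y = g • y := by rw [hk y (Or.inr (Or.inr hy)), τk y hy]
    have kgy : k • g • y = y := by rw [hk _ (Or.inr (Or.inr hgy)), τk _ hgy, gg]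
    have kk : ∀ n : ℕ, (k ^ (2 * n)) • y = y := fun n => by
      induction n with
      | zero => simp
      | succ n ih => rw [mul_add, pow_add, mul_smul, mul_one, pow_two, mul_smul, ky, kgy, ih]
    have hev : Even (orderOf k) := by
      by_contra hodd
      obtain ⟨m, hm⟩ := Nat.not_even_iff_odd.mp hodd
      have := pow_orderOf_eq_one k
      rw [hm, pow_succ'] at this
      apply hy'
      rw [← ky, ← kk m, ← mul_smul, this, one_smul, kk m]
    have hs := H9.orderOf_pow_half hev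
    set s := k ^ (orderOf k / 2)
    have fix : ∀ z : Ω, k • z = z → s • z = z := fun z hz =>
      Subgroup.pow_mem (stabilizer G z) hz _
    have e1 : fixedBy Ω g = fixedBy Ω s :=
      Set.eq_of_subset_of_ncard_le
        (fun z hz => fix z (by rw [hk z (Or.inl hz), τg z hz]))
        (ncard_fixedBy_of_isConj (hone _ _ hs hg)).le
    have e2 : fixedBy Ω h = fixedBy Ω s :=
      Set.eq_of_subset_of_ncard_le
        (fun z hz => fix z (by rw [hk z (Or.inr (Or.inl hz)), τh z hz]))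
        (ncard_fixedBy_of_isConj (hone _ _ hs hh)).le
    have : x ∈ fixedBy Ω g := hx
    rw [e1, ← e2] at this
    exact this

theorem Bin.fixedBy_eq (hB : Bin G Ω) [Finite G] [Finite Ω] (hone : OneCl G) {g h : G}
    (hg : orderOf g = 2) (hh : orderOf h = 2) (hc : Commute g h) :
    fixedBy Ω g = fixedBy Ω h :=
  Set.ext fun _ => ⟨hB.fix_of_commute hone hg hh hc, hB.fix_of_commute hone hh hg hc.symm⟩

/-- a binary action of a simple group with one class of involutions with a proper stabiliser of even order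
gives a strongly embedded subgroup -/
theorem Bin.exists_se (hB : Bin G Ω) [Finite G] [Finite Ω] [IsSimpleGroup G] (hone : OneCl G)
    {α : Ω} (hα : stabilizer G α ≠ ⊤) {s : G} (hs : orderOf s = 2) (hsα : s • α = α) :
    ∃ M : Subgroup G, Cfsg.IsStronglyEmbedded M := by
  let M : Subgroup G :=
    { carrier := {g | fixedBy Ω (g * s * g⁻¹) = fixedBy Ω s}
      one_mem' := by simp
      mul_mem' := by
        intro a b ha hb
        simp only [Set.mem_ofPred_eq] at ha hb ⊢
        ext x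
        have h1 := Set.ext_iff.mp ha x
        have h2 := Set.ext_iff.mp hb (a⁻¹ • x)
        simp only [mem_fixedBy, mul_smul, mul_inv_rev] at h1 h2 ⊢
        rw [← h1]
        constructor
        · intro h
          have : s • a⁻¹ • x = a⁻¹ • x := h2.mp (by rw [eq_inv_smul_iff, h])
          rw [this, smul_inv_smul]
        · intro h
          have : s • a⁻¹ • x = a⁻¹ • x := by rw [eq_inv_smul_iff, h]
          rw [h2.mpr this, smul_inv_smul]
      inv_mem' := by
        intro a ha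
        simp only [Set.mem_ofPred_eq] at ha ⊢
        ext x
        have h1 := Set.ext_iff.mp ha (a • x)
        simp only [mem_fixedBy, mul_smul, inv_inv, inv_smul_smul, smul_left_cancel_iff] at h1 ⊢
        rw [h1, inv_smul_eq_iff] }
  have memM : ∀ g, g ∈ M ↔ fixedBy Ω (g * s * g⁻¹) = fixedBy Ω s := fun _ => Iff.rfl
  have hsM : s ∈ M := by rw [memM]; simp
  have s2 := H9.mul_self_of_orderOf_two hs
  have inv : ∀ t ∈ M, orderOf t = 2 → fixedBy Ω t = fixedBy Ω s := by
    intro t ht ho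
    have t2 := H9.mul_self_of_orderOf_two ho
    rcases Nat.even_or_odd (orderOf (s * t)) with h | h
    · obtain ⟨c1, c2⟩ := H9.pow_half_commute s2 t2 h
      have hz := H9.orderOf_pow_half h
      rw [← hB.fixedBy_eq hone hz ho c2, hB.fixedBy_eq hone hz hs c1]
    · obtain ⟨m, hm⟩ := H9.exists_pow_conj_of_odd s2 t2 h
      rw [← hm]
      exact (memM _).mp (M.pow_mem (M.mul_mem hsM ht) m)
  refine ⟨M, H9.isStronglyEmbedded_iff.mpr ⟨fun hM => hα ?_, ?_, fun t ht ho g hg => ?_⟩⟩
  · have hN : Subgroup.normalClosure {s} ≤ stabilizer G α := by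
      rw [Subgroup.normalClosure, Subgroup.closure_le]
      intro x hx
      obtain ⟨y, hy, hc⟩ := Group.mem_conjugatesOfSet_iff.mp hx
      rw [Set.mem_singleton_iff] at hy
      subst hy
      obtain ⟨c, rfl⟩ := isConj_iff.mp hc
      have : α ∈ fixedBy Ω (c * y * c⁻¹) := by
        rw [(memM c).mp (hM ▸ Subgroup.mem_top c)]; exact hsα
      exact this
    rcases (Subgroup.normalClosure_normal (s := {s})).eq_bot_or_eq_top with h | h
    · have : s ∈ Subgroup.normalClosure {s} := Subgroup.subset_normalClosure rfl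
      rw [h, Subgroup.mem_bot] at this
      exact absurd this (H9.ne_one_of_orderOf_two hs)
    · exact top_le_iff.mp (h ▸ hN)
  · exact (H9.even_card_iff_exists_involution M).mpr ⟨s, hsM, hs⟩
  · have e1 := inv t ht ho
    have e2 := inv _ hg (by rw [H9.orderOf_conj, ho])
    rw [memM]
    ext x
    have h1 := Set.ext_iff.mp e1 (g⁻¹ • x)
    have h2 := Set.ext_iff.mp e2 x
    simp only [mem_fixedBy, mul_smul] at h1 h2 ⊢
    rw [← h2, smul_eq_iff_eq_inv_smul, smul_eq_iff_eq_inv_smul g, h1]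

/-- criterion for actions with trivially intersecting stabilisers -/
theorem bin_of_ti
    (hTI : ∀ (α β : Ω) (a : G), a ≠ 1 → a • α = α → a • β = β → stabilizer G α = stabilizer G β)
    (h : ∀ (α β γ : Ω) (a b : G), a ≠ 1 → b ≠ 1 → a ≠ b → a • α = α → b • β = β →
      a • γ = b • γ → stabilizer G α = stabilizer G β) : Bin G Ω := by
  intro n I J hn H
  by_cases hall : ∀ i j, stabilizer G (I i) = stabilizer G (I j)
  · let i0 : Fin n := ⟨0, by omega⟩
    let i1 : Fin n := ⟨1, by omega⟩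
    obtain ⟨g, h0, -⟩ := H i0 i1 (by simp [i0, i1])
    refine ⟨g, fun k => ?_⟩
    by_cases hk : k = i0
    · rw [hk, h0]
    obtain ⟨a, a0, ak⟩ := H i0 k (Ne.symm hk)
    have : g⁻¹ * a ∈ stabilizer G (I i0) := by
      rw [mem_stabilizer_iff, mul_smul, a0, inv_smul_eq_iff, h0]
    rw [hall i0 k, mem_stabilizer_iff, mul_smul, inv_smul_eq_iff] at this
    rw [← this, ak]
  · push Not at hall
    obtain ⟨i, j, hij⟩ := hall
    have hne : i ≠ j := fun e => hij (by rw [e])
    obtain ⟨g, gi, gj⟩ := H i j hne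
    refine ⟨g, fun k => ?_⟩
    by_cases hki : k = i
    · rw [hki, gi]
    by_cases hkj : k = j
    · rw [hkj, gj]
    obtain ⟨a, ai, ak⟩ := H i k (Ne.symm hki)
    obtain ⟨b, bj, bk⟩ := H j k (Ne.symm hkj)
    have ha : (g⁻¹ * a) • I i = I i := by rw [mul_smul, ai, inv_smul_eq_iff, gi]
    have hb : (g⁻¹ * b) • I j = I j := by rw [mul_smul, bj, inv_smul_eq_iff, gj]
    have hab : (g⁻¹ * a) • I k = (g⁻¹ * b) • I k := by rw [mul_smul, mul_smul, ak, bk]
    by_cases ha1 : g⁻¹ * a = 1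
    · rw [← ak, ← inv_mul_eq_one.mp ha1]
    by_cases hb1 : g⁻¹ * b = 1
    · rw [← bk, ← inv_mul_eq_one.mp hb1]
    by_cases e : g⁻¹ * a = g⁻¹ * b
    · exact absurd (hTI _ _ _ ha1 ha (e ▸ hb)) hij
    · exact absurd (h _ _ _ _ _ ha1 hb1 e ha hb hab) hij

theorem mem_stab_coe (H : Subgroup G) (g x : G) :
    x • (g : G ⧸ H) = (g : G ⧸ H) ↔ g⁻¹ * x * g ∈ H := by
  rw [MulAction.Quotient.smul_coe, eq_comm, QuotientGroup.eq, smul_eq_mul, mul_assoc]

theorem stab_one (H : Subgroup G) : stabilizer G ((1 : G) : G ⧸ H) = H := by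
  ext x; rw [mem_stabilizer_iff, mem_stab_coe]; simp

theorem stab_coe_eq {H : Subgroup G} {g g' : G}
    (h : g⁻¹ * g' ∈ Subgroup.normalizer (H : Set G)) :
    stabilizer G (g : G ⧸ H) = stabilizer G (g' : G ⧸ H) := by
  ext x
  rw [mem_stabilizer_iff, mem_stabilizer_iff, mem_stab_coe, mem_stab_coe,
    Subgroup.mem_normalizer_iff''.mp h]
  group

theorem bin_bot : Bin G (G ⧸ (⊥ : Subgroup G)) := by
  have : ∀ (α : G ⧸ (⊥ : Subgroup G)) (a : G), a • α = α → a = 1 := by
    intro α a h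
    induction α using QuotientGroup.induction_on with
    | H g =>
      rw [mem_stab_coe, Subgroup.mem_bot] at h
      calc a = g * (g⁻¹ * a * g) * g⁻¹ := by group
        _ = 1 := by rw [h]; group
  exact bin_of_ti (fun α _ a h1 h2 _ => absurd (this α a h2) h1)
    (fun α _ _ a _ h1 _ _ h2 _ _ => absurd (this α a h2) h1)

/-- coset form of the criterion -/
theorem bin_of_ti' {H : Subgroup G}
    (hTI : ∀ g a : G, a ≠ 1 → a ∈ H → g⁻¹ * a * g ∈ H → g ∈ Subgroup.normalizer (H : Set G))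
    (h : ∀ g k a b : G, a ≠ 1 → b ≠ 1 → a ≠ b → a ∈ H → g⁻¹ * b * g ∈ H →
      k⁻¹ * (a⁻¹ * b) * k ∈ H → g ∈ Subgroup.normalizer (H : Set G)) : Bin G (G ⧸ H) := by
  have cne : ∀ {x a : G}, a ≠ 1 → x⁻¹ * a * x ≠ 1 := fun {x a} h1 e => h1 (by
    calc a = x * (x⁻¹ * a * x) * x⁻¹ := by group
      _ = 1 := by rw [e]; group)
  refine bin_of_ti (fun α β a h1 h2 h3 => ?_) (fun α β γ a b h1 h2 h3 h4 h5 h6 => ?_)
  · induction α using QuotientGroup.induction_on with | H x => ?_
    induction β using QuotientGroup.induction_on with | H y => ?_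
    rw [mem_stab_coe] at h2 h3
    exact stab_coe_eq (hTI _ _ (cne h1) h2 (by convert h3 using 1; group))
  · induction α using QuotientGroup.induction_on with | H x => ?_
    induction β using QuotientGroup.induction_on with | H y => ?_
    induction γ using QuotientGroup.induction_on with | H z => ?_
    rw [mem_stab_coe] at h4 h5
    have h7 : (a⁻¹ * b) • (z : G ⧸ H) = z := by rw [mul_smul, ← h6, inv_smul_smul]
    rw [mem_stab_coe] at h7
    refine stab_coe_eq (h (x⁻¹ * y) (x⁻¹ * z) (x⁻¹ * a * x) (x⁻¹ * b * x) (cne h1) (cne h2)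
      (fun e => h3 (by simpa using e)) h4 (by convert h5 using 1; group)
      (by convert h7 using 1; group))

/-- an elementary abelian 2-subgroup whose distinct conjugates contain no commuting involutions -/
theorem bin_of_elem {H : Subgroup G} (h2 : ∀ x ∈ H, x * x = 1)
    (h : ∀ g a b : G, a ≠ 1 → b ≠ 1 → a ∈ H → g⁻¹ * b * g ∈ H → a * b = b * a →
      g ∈ Subgroup.normalizer (H : Set G)) : Bin G (G ⧸ H) := by
  have c2 : ∀ {x a : G}, x⁻¹ * a * x ∈ H → a * a = 1 := fun {x a} e => by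
    calc a * a = x * ((x⁻¹ * a * x) * (x⁻¹ * a * x)) * x⁻¹ := by group
      _ = 1 := by rw [h2 _ e]; group
  refine bin_of_ti' (fun g a h1 h3 h4 => h g a a h1 h1 h3 h4 rfl)
    (fun g k a b h1 h3 _ h4 h5 h6 => h g a b h1 h3 h4 h5 ?_)
  have ea := eq_inv_of_mul_eq_one_left (h2 a h4)
  have eb := eq_inv_of_mul_eq_one_left (c2 h5)
  have e := eq_inv_of_mul_eq_one_left (c2 h6)
  rw [mul_inv_rev, inv_inv, ← ea, ← eb] at e
  exact e

theorem smul_smul_eq_iff {α : Ω} {c x : G} : x • c • α = c • α ↔ (c⁻¹ * x * c) • α = α := by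
  rw [mul_smul, mul_smul, inv_smul_eq_iff]

/-- stabilisers inside a self-centralising abelian subgroup -/
theorem Bin.comm_of_selfCent (hB : Bin G Ω) {α : Ω} {K : Subgroup G} (hK : stabilizer G α ≤ K)
    (hc : ∀ x ∈ K, ∀ y ∈ K, x * y = y * x)
    (hs : ∀ x ∈ K, x ≠ 1 → ∀ g : G, g * x = x * g → g ∈ K)
    {a b c c₁ c₂ c₃ : G} (ha : (c₁⁻¹ * a * c₁) • α = α) (hb : (c₂⁻¹ * b * c₂) • α = α)
    (hc' : (c₃⁻¹ * c * c₃) • α = α) (h : a * b * c = 1) : a * b = b * a := by
  have cj : ∀ {x y z : G}, (z⁻¹ * x * z) * (z⁻¹ * y * z) = (z⁻¹ * y * z) * (z⁻¹ * x * z) ↔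
      x * y = y * x := fun {x y z} => by
    constructor
    · intro e
      calc x * y = z * ((z⁻¹ * x * z) * (z⁻¹ * y * z)) * z⁻¹ := by group
        _ = y * x := by rw [e]; group
    · intro e
      calc (z⁻¹ * x * z) * (z⁻¹ * y * z) = z⁻¹ * (x * y) * z := by group
        _ = _ := by rw [e]; group
  obtain ⟨k, k1, k2, k3⟩ := hB.tri' (smul_smul_eq_iff.mpr ha) (smul_smul_eq_iff.mpr hb)
    (smul_smul_eq_iff.mpr hc') h
  rw [smul_smul_eq_iff] at k1 k2 k3
  by_cases hk : k = 1
  · subst hk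
    rw [mul_one] at k3
    have e : a * c = c * a := cj.mp (hc _ (hK k3) _ (hK hc'))
    have : b = a⁻¹ * c⁻¹ := by
      calc b = a⁻¹ * (a * b * c) * c⁻¹ := by group
        _ = _ := by rw [h]; group
    rw [this]
    calc a * (a⁻¹ * c⁻¹) = a⁻¹ * c⁻¹ * (c * a) * c⁻¹ := by group
      _ = a⁻¹ * c⁻¹ * (a * c) * c⁻¹ := by rw [e]
      _ = _ := by group
  · have e : b * k = k * b := cj.mp (hc _ (hK hb) _ (hK k2))
    have h1 : c₁⁻¹ * k * c₁ ≠ 1 := fun e' => hk (by
      calc k = c₁ * (c₁⁻¹ * k * c₁) * c₁⁻¹ := by group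
        _ = 1 := by rw [e']; group)
    exact cj.mp (hc _ (hK ha) _ (hs _ (hK k1) h1 _ (cj.mpr e)))

end H41.BA
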