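import Mathlib
import Cfsg.Agent.Lib.Binary.Basic
import Cfsg.Agent.Lib.MinDeg8.U3More

/-!
# Binary actions of `SU₃(q)`, `q` even: stabilisers fixing an isotropic point
-/

set_option autoImplicit false

namespace H41.BA

open MulAction Matrix Cfsg H11.U H8.U3

theorem Bin.frob {G Ω : Type*} [Group G] [MulAction G Ω] (hB : Bin G Ω) {α δ : Ω} {t x y : G}
    (h1 : t • α = α) (h2 : t • δ = δ)
    (e : t * y * t⁻¹ = x * (t * (t * (x⁻¹ * y) * t⁻¹) * t⁻¹)) :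
    ∃ k : G, k • α = α ∧ k • δ = δ ∧ k • x • δ = x • δ ∧ k • y • δ = t • y • δ := by
  have h3 : t⁻¹ • δ = δ := by rw [inv_smul_eq_iff, h2]
  refine hB.quad (b := x * t * t * x⁻¹) h1 h2 ?_ ?_
  · simp only [mul_smul, inv_smul_smul, h2]
  · have := congrArg (· • δ) e
    simpa only [mul_smul, h3] using this

variable {F : Type*} [Field F] [Fintype F] {q : ℕ} [IsSq F q]

set_option hygiene false in
local notation "V" => (Fin 3 → F)
set_option hygiene false in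
local notation "G" => SU 3 F q
set_option hygiene false in
local notation "⟪" u "," v "⟫" => hermForm 3 F q u v

variable {Ω : Type*} [MulAction G Ω]

omit [Fintype F] in
theorem neg_self2 (h2 : (2 : F) = 0) (x : F) : -x = x := by linear_combination (-x) * h2

theorem pt_map {α : Ω} {e : V} (hX : stabilizer G α ≤ St q e) {g c c' : G}
    (h : g • c • α = c' • α) : ∃ a : F, ac g (ac c e) = a • ac c' e := by
  have : c'⁻¹ * g * c ∈ stabilizer G α := by
    rw [mem_stabilizer_iff, mul_smul, mul_smul, h, inv_smul_smul]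
  obtain ⟨a, ha⟩ := mem_St.mp (hX this)
  refine ⟨a, ?_⟩
  rw [ac_mul, ac_mul] at ha
  rw [← ac_smul, ← ha, ac_ac_inv]

theorem eq_one_of_Fx_St {e w f : V} (h : Fr q e w f) {u : G} (hu : u ∈ Fx q e) (hf : u ∈ St q f) :
    u = 1 := by
  by_contra h1
  obtain ⟨a, ha⟩ := eq_smul_of_fix h.iso_e h.iso_f hu h1 hf
  have := h.fe
  rw [ha, form_smul_left, h.ee, mul_zero] at this
  exact zero_ne_one this

theorem eig_pair {u v : V} (huv : ⟪u, v⟫ ≠ 0) {g : G} {a b : F} (hu : ac g u = a • u)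
    (hv : ac g v = b • v) : a * cj q b = 1 := by
  have := form_ac g u v
  rw [hu, hv, form_smul_left, form_smul_right, ← mul_assoc] at this
  exact mul_right_cancel₀ huv (this.trans (one_mul _).symm)

theorem exists_swap (h2 : (2 : F) = 0) {e w f : V} (h : Fr q e w f) :
    ∃ s : G, ac s e = f ∧ ac s w = w ∧ ac s f = e := by
  obtain ⟨s, h1, h3⟩ := exists_su_pair (q := q) le_rfl one_ne_zero h.ee h.ff h.ff h.ee h.fe h.ef
  have h1' : ac s e = f := h1
  have h3' : ac s f = e := h3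
  obtain ⟨a, b, c, hw⟩ := h.exists_comb (ac s w)
  have e1 := form_ac s w e
  have e2 := form_ac s w f
  rw [h1', hw, h.form_f, h.we] at e1
  rw [h3', hw, h.form_e, h.wf] at e2
  have hd := h.det_eq (g := s) (a₁ := 0) (a₂ := 0) (a₃ := 1) (c₁ := 1) (c₂ := 0) (c₃ := 0)
    (by simp [h1']) hw (by simp [h3'])
  have hb : b = 1 := by linear_combination -hd - h2
  refine ⟨s, h1', ?_, h3'⟩
  rw [hw, e1, e2, hb]; simp

/-- an element with `N(l) ≠ 1` fixes a second isotropic point -/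
theorem exists_fr_fix {e : V} (he : Iso q e) {g : G} {l : F} (hg : ac g e = l • e)
    (hN : l * cj q l ≠ 1) : ∃ w f, Fr q e w f ∧ ac g f = (cj q l)⁻¹ • f := by
  obtain ⟨w, f, h⟩ := he.exists_fr
  obtain ⟨hl, a, x, c, hw, hf⟩ := h.shape hg
  have hl' : cj q l ≠ 0 := cj_ne_zero.2 hl
  have d1 : l - cj q l ^ 2 ≠ 0 := fun e1 => hN (by
    have e2 : l = cj q l ^ 2 := sub_eq_zero.mp e1
    have e3 : cj q l = l ^ 2 := by
      have := congrArg (cj q) e2
      rwa [map_pow, cj_cj] at this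
    have : l * cj q l * (l * cj q l - 1) = 0 := by
      calc _ = l ^ 2 * cj q l ^ 2 - l * cj q l := by ring
        _ = 0 := by rw [← e2, ← e3]; ring
    exact sub_eq_zero.mp ((mul_eq_zero.mp this).resolve_left (mul_ne_zero hl hl')))
  have d2 : 1 - l * cj q l ≠ 0 := fun e1 => hN (sub_eq_zero.mp e1).symm
  have d2' : 1 - cj q l * l ≠ 0 := by rwa [mul_comm]
  set x' : F := x * l * cj q l / (l - cj q l ^ 2) with hx'
  set c' : F := (c + a * x') * cj q l / (1 - l * cj q l) with hc'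
  have hv : ac g (c' • e + x' • w + f) = (cj q l)⁻¹ • (c' • e + x' • w + f) := by
    rw [ac_add, ac_add, ac_smul, ac_smul, hg, hw, hf]
    have e1 : x' * (cj q l / l) + x = (cj q l)⁻¹ * x' := by rw [hx']; field_simp; ring
    have e2 : c' * l + x' * a + c = (cj q l)⁻¹ * c' := by rw [hc']; field_simp; ring
    calc _ = (c' * l + x' * a + c) • e + (x' * (cj q l / l) + x) • w + (cj q l)⁻¹ • f := by module
      _ = _ := by rw [e1, e2]; module
  generalize hvv : c' • e + x' • w + f = v at hv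
  have hve : ⟪v, e⟫ = 1 := by rw [← hvv, ← one_smul F f, h.form_e]
  have hv0 : ⟪v, v⟫ = 0 := by
    by_contra h0
    have := eig_pair h0 hv hv
    rw [map_inv₀, cj_cj] at this
    apply hN
    field_simp at this
    rw [mul_comm, ← this]
  obtain ⟨w', hw'⟩ := exists_fr_of_pair he.2 hv0 (form_eq_one_symm hve)
  exact ⟨w', v, hw', hv⟩

theorem u3_norm (h2 : (2 : F) = 0) (hB : Bin G Ω) {α : Ω} {e : V} (he : Iso q e)
    (hX : stabilizer G α ≤ St q e) {g : G} (hg : g • α = α) {l : F} (hl : ac g e = l • e) :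
    l * cj q l = 1 := by
  by_contra hN
  obtain ⟨w, f, h, hf⟩ := exists_fr_fix he hl hN
  obtain ⟨s, s1, -, s3⟩ := exists_swap h2 h
  have hl0 := ne_zero_of_ac h.e_ne hl
  have hl' : cj q l ≠ 0 := cj_ne_zero.2 hl0
  have si1 : ac s⁻¹ f = e := by rw [← s1, ac_inv_ac]
  have si3 : ac s⁻¹ e = f := by rw [← s3, ac_inv_ac]
  have hδ : g • s • α = s • α := by
    rw [smul_smul_eq_iff]
    have : g ^ q * (s⁻¹ * g * s) = 1 := by
      refine eq_one_of_Fx_St h ?_ ⟨((cj q l)⁻¹) ^ q * l, ?_⟩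
      · rw [mem_Fx, ac_mul, ac_mul, ac_mul, s1, hf, ac_smul, si1, ac_smul, ac_pow hl, smul_smul,
          ← cj_apply, inv_mul_cancel₀ hl', one_smul]
      · rw [ac_mul, ac_mul, ac_mul, s3, hl, ac_smul, si3, ac_smul, ac_pow hf, smul_smul, mul_comm]
    rw [eq_inv_of_mul_eq_one_right this]
    exact (stabilizer G α).inv_mem ((stabilizer G α).pow_mem hg q)
  set n : F := l * cj q l with hn
  have hn0 : n ≠ 0 := mul_ne_zero hl0 hl'
  have hnc : cj q n = n := cj_norm l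
  have h1n : 1 + n ≠ 0 := fun e' => hN (by linear_combination e' - h2)
  set c : F := n / (1 + n) with hc
  have hc0 : c ≠ 0 := div_ne_zero hn0 h1n
  have hcc : cj q c = c := by rw [hc, map_div₀, map_add, map_one, hnc]
  have fx : ∀ {b : F}, cj q b = b → cj q b = -b := fun hb => by rw [neg_self2 h2, hb]
  have cg : ∀ {b : F}, cj q b = b → g * tv q e b * g⁻¹ = tv q e (n * b) := fun hb => by
    rw [conj_tv', hl, tv_smul h.ee (fx hb)]
  obtain ⟨k, k1, k2, k3, k4⟩ := hB.frob (x := tv q e c) (y := tv q e 1) hg hδ (by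
    have a1 : cj q (c + 1) = c + 1 := by rw [map_add, map_one, hcc]
    have a2 : cj q (n * (c + 1)) = n * (c + 1) := by rw [map_mul, a1, hnc]
    have a3 : cj q (n * (n * (c + 1))) = n * (n * (c + 1)) := by rw [map_mul, a2, hnc]
    rw [tv_inv, neg_self2 h2, tv_mul h.ee (fx hcc) (fx (map_one _)), cg a1, cg a2, cg (map_one _),
      tv_mul h.ee (fx hcc) (fx a3)]
    congr 1
    rw [hc]; field_simp
    linear_combination (-n ^ 2) * h2)
  obtain ⟨a1, p1⟩ := mem_St.mp (hX k1)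
  obtain ⟨a2, p2⟩ := pt_map hX k2
  obtain ⟨a3, p3⟩ := pt_map hX (c := tv q e c * s) (c' := tv q e c * s)
    (by simpa only [mul_smul] using k3)
  obtain ⟨a4, p4⟩ := pt_map hX (c := tv q e 1 * s) (c' := g * tv q e 1 * s)
    (by simpa only [mul_smul] using k4)
  simp only [ac_mul, s1, h.tv_f (fx hcc), h.tv_f (fx (map_one _)), ac_add, ac_smul, p1, hl, hf,
    zero_smul, add_zero, one_smul] at p2 p3 p4
  rw [p2] at p3 p4
  have q3 := h.comb_inj (a := c * a1) (b := 0) (c := a2) (a' := a3 * c) (b' := 0) (c' := a3)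
    (by linear_combination (norm := module) p3)
  have q4 := h.comb_inj (a := a1) (b := 0) (c := a2) (a' := a4 * l) (b' := 0)
    (c' := a4 * (cj q l)⁻¹) (by linear_combination (norm := module) p4)
  have e1 : a1 = a2 := mul_left_cancel₀ hc0 (by rw [q3.1, q3.2.2, mul_comm])
  have a0 : a1 ≠ 0 := ne_zero_of_ac h.e_ne p1
  have a40 : a4 ≠ 0 := by rintro rfl; exact a0 (by simpa using q4.1)
  have : l = (cj q l)⁻¹ := mul_left_cancel₀ a40 (by rw [← q4.1, ← q4.2.2, e1])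
  apply hN
  rw [hn]
  nth_rewrite 1 [this]
  exact inv_mul_cancel₀ hl'

/-! ### orthonormal frames -/

variable (q) in
/-- an orthonormal frame -/
structure ON (z₁ z₂ z₃ : V) : Prop where
  n1 : ⟪z₁, z₁⟫ = 1
  n2 : ⟪z₂, z₂⟫ = 1
  n3 : ⟪z₃, z₃⟫ = 1
  p12 : ⟪z₁, z₂⟫ = 0
  p13 : ⟪z₁, z₃⟫ = 0
  p23 : ⟪z₂, z₃⟫ = 0

namespace ON

variable {z₁ z₂ z₃ : V} (h : ON q z₁ z₂ z₃)
include h

theorem p21 : ⟪z₂, z₁⟫ = 0 := form_eq_zero_symm h.p12
theorem p31 : ⟪z₃, z₁⟫ = 0 := form_eq_zero_symm h.p13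
theorem p32 : ⟪z₃, z₂⟫ = 0 := form_eq_zero_symm h.p23

theorem rot : ON q z₂ z₃ z₁ := ⟨h.n2, h.n3, h.n1, h.p23, h.p21, h.p31⟩

theorem expand (v : V) : v = ⟪v, z₁⟫ • z₁ + ⟪v, z₂⟫ • z₂ + ⟪v, z₃⟫ • z₃ :=
  on_expand h.n1 h.n2 h.n3 h.p12 h.p32 h.p31 v

theorem ext {g k : G} (h1 : ac g z₁ = ac k z₁) (h2 : ac g z₂ = ac k z₂) (h3 : ac g z₃ = ac k z₃) :
    g = k := by
  refine ac_ext fun v => ?_
  rw [h.expand v]
  simp only [ac_add, ac_smul, h1, h2, h3]

theorem iso_ne {v : V} (hv : Iso q v) (h1 : ⟪v, z₁⟫ = 0) : ⟪v, z₂⟫ ≠ 0 := by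
  intro h2
  have e := h.expand v
  rw [h1, h2, zero_smul, zero_smul, zero_add, zero_add] at e
  have := hv.2
  rw [e, form_smul_left, form_smul_right, h.n3, mul_one, mul_eq_zero, cj_eq_zero, or_self] at this
  rw [this, zero_smul] at e
  exact hv.1 e

end ON

theorem exists_ON {w : V} (hw : ⟪w, w⟫ = 1) : ∃ z₁ z₂ : V, ON q z₁ z₂ w := by
  obtain ⟨e, f, h⟩ := exists_fr_of_norm hw
  obtain ⟨t, ht⟩ := exists_trace_eq (q := q) (c := (1 : F)) (map_one _)
  have h1 : ⟪t • e + (0 : F) • w + (1 : F) • f, t • e + (0 : F) • w + (1 : F) • f⟫ = 1 := by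
    rw [h.form_form]; simpa using ht
  have h2 := h.form_w t 0 1
  generalize t • e + (0 : F) • w + (1 : F) • f = u at h1 h2
  obtain ⟨z, z1, z2, z3⟩ := exists_perp_norm (h1 ▸ one_ne_zero) (hw ▸ one_ne_zero) h2
  exact ⟨u, z, h1, z1, hw, form_eq_zero_symm z3, h2, z2⟩

theorem form_ne_of_perp {z₁ z₂ z₃ : V} (h : ON q z₁ z₂ z₃) {u v : V} (hu : Iso q u) (hv : Iso q v)
    (h1 : ⟪u, z₁⟫ = 0) (h2 : ⟪v, z₂⟫ = 0) : ⟪u, v⟫ ≠ 0 := by
  refine hv.form_ne_zero hu (fun a e => h.iso_ne hu h1 ?_)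
  rw [e, form_smul_left, h2, mul_zero]

variable (q) in
/-- a homology with centre `z` -/
def Homol (i : G) (z : V) (l : F) : Prop :=
  ∀ v, ac i v = l • v + (((l ^ 2)⁻¹ - l) * ⟪v, z⟫) • z

theorem Homol.conj {i : G} {z : V} {l : F} (h : Homol q i z l) (g : G) :
    Homol q (g * i * g⁻¹) (ac g z) l := by
  intro v
  rw [ac_mul, ac_mul, h, ac_add, ac_smul, ac_smul, ac_ac_inv, ← form_ac g, ac_ac_inv]

theorem u3_cube (h2 : (2 : F) = 0) (hB : Bin G Ω) {α : Ω} {e : V} (he : Iso q e)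
    (hX : stabilizer G α ≤ St q e) {g : G} (hg : g • α = α) {l₀ : F} (hl : ac g e = l₀ • e) :
    l₀ ^ 3 = 1 := by
  by_contra h3
  have hchar : CharP F 2 := (CharP.charP_iff_prime_eq_zero Nat.prime_two).mpr h2
  obtain ⟨a, n, hn, hord⟩ := Nat.exists_eq_two_pow_mul_odd (orderOf_pos g).ne'
  have hi := ac_pow hl (2 ^ a)
  have hiα : g ^ 2 ^ a • α = α := (stabilizer G α).pow_mem hg _
  have h3' : (l₀ ^ 2 ^ a) ^ 3 ≠ 1 := fun e' => h3 (by
    rw [← pow_mul, mul_comm, pow_mul] at e'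
    have := sub_pow_char_pow (l₀ ^ 3) 1 (p := 2) (n := a)
    rw [e', one_pow, sub_self] at this
    exact sub_eq_zero.mp (pow_eq_zero_iff (by positivity) |>.mp this))
  have hin : (g ^ 2 ^ a) ^ n = 1 := by rw [← pow_mul, ← hord, pow_orderOf_eq_one]
  generalize g ^ 2 ^ a = i at hi hiα hin
  generalize l₀ ^ 2 ^ a = l at hi h3'
  have hN := u3_norm h2 hB he hX hiα hi
  have hn0 : (n : F) ≠ 0 := by
    obtain ⟨m, rfl⟩ := hn
    push_cast
    rw [h2, zero_mul, zero_add]; exact one_ne_zero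
  obtain ⟨w, f, h, hw, hf⟩ := exists_homology he hi hN h3' hn0 hin
  have hl0 := ne_zero_of_ac h.e_ne hi
  have hom : Homol q i w l := by
    intro v
    obtain ⟨a, b, c, rfl⟩ := h.exists_comb v
    rw [h.form_w, ac_add, ac_add, ac_smul, ac_smul, ac_smul, hi, hw, hf]
    module
  obtain ⟨z₁, z₂, hz⟩ := exists_ON h.ww
  obtain ⟨g₁, hg₁⟩ := exists_su_norm (q := q) (by norm_num) (h.ww.trans hz.n1.symm)
    (h.ww ▸ one_ne_zero)
  obtain ⟨g₂, hg₂⟩ := exists_su_norm (q := q) (by norm_num) (h.ww.trans hz.n2.symm)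
    (h.ww ▸ one_ne_zero)
  replace hg₁ : ac g₁ w = z₁ := hg₁
  replace hg₂ : ac g₂ w = z₂ := hg₂
  have hom₁ := hom.conj g₁
  have hom₂ := hom.conj g₂
  rw [hg₁] at hom₁
  rw [hg₂] at hom₂
  have f₁ : (g₁ * i * g₁⁻¹) • g₁ • α = g₁ • α := by simp only [mul_smul, inv_smul_smul, hiα]
  have f₂ : (g₂ * i * g₂⁻¹) • g₂ • α = g₂ • α := by simp only [mul_smul, inv_smul_smul, hiα]
  have I₁ := he.ac g₁
  have I₂ := he.ac g₂
  have o₁ : ⟪ac g₁ e, z₁⟫ = 0 := by rw [← hg₁, form_ac, h.ew]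
  have o₂ : ⟪ac g₂ e, z₂⟫ = 0 := by rw [← hg₂, form_ac, h.ew]
  generalize g₁ * i * g₁⁻¹ = i₁ at hom₁ f₁
  generalize g₂ * i * g₂⁻¹ = i₂ at hom₂ f₂
  have hprod : i₁ * i₂ * i = 1 := by
    refine hz.ext ?_ ?_ ?_ <;>
    simp only [ac_mul, ac_one, hom _, hom₁ _, hom₂ _, hz.n1, hz.n2, hz.n3, hz.p12, hz.p13, hz.p23,
      hz.p21, hz.p31, hz.p32, mul_zero, zero_smul, add_zero, mul_one, form_smul_left,
      ← add_smul, smul_smul] <;>
    match_scalars <;> field_simp <;> ring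
  obtain ⟨k, k1, k2, k3⟩ := hB.tri' f₁ f₂ hiα hprod
  obtain ⟨a1, p1⟩ := pt_map hX k1
  obtain ⟨a2, p2⟩ := pt_map hX k2
  obtain ⟨a3, p3⟩ := mem_St.mp (hX k3)
  have N2 : a2 * cj q a2 = 1 := u3_norm h2 hB he hX (smul_smul_eq_iff.mp k2) (by
    rw [ac_mul, ac_mul, p2, ac_smul, ac_inv_ac])
  have N3 : a3 * cj q a3 = 1 := u3_norm h2 hB he hX k3 p3
  have r12 := eig_pair (form_ne_of_perp hz I₁ I₂ o₁ o₂) p1 p2
  have p1' : ac (i₁ * k) (ac g₁ e) = (a1 * l) • ac g₁ e := by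
    rw [ac_mul, p1, ac_smul, hom₁, o₁, mul_zero, zero_smul, add_zero, smul_smul]
  have r13 := eig_pair (form_ne_zero_symm (form_ne_of_perp hz.rot.rot he I₁ h.ew o₁)) p1' p3
  have c2 : cj q a2 ≠ 0 := right_ne_zero_of_mul (N2 ▸ one_ne_zero)
  have c3 : cj q a3 ≠ 0 := right_ne_zero_of_mul (N3 ▸ one_ne_zero)
  have e12 : a1 = a2 := mul_right_cancel₀ c2 (r12.trans N2.symm)
  have e13 : a1 * l = a3 := mul_right_cancel₀ c3 (r13.trans N3.symm)
  have u1 := form_ac k e (ac g₂ e)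
  rw [p2, form_smul_right] at u1
  have u2 := form_ac i₁ (ac k e) (ac g₂ e)
  rw [← ac_mul, p3, hom₁, form_smul_left, form_add_right, form_smul_right, form_smul_right] at u2
  have n1 : ⟪e, z₁⟫ ≠ 0 := hz.rot.rot.iso_ne he h.ew
  have n2 : ⟪ac g₂ e, z₁⟫ ≠ 0 := by
    have : ON q z₂ z₁ w := ⟨hz.n2, hz.n1, hz.n3, hz.p21, hz.p23, hz.p13⟩
    exact this.iso_ne I₂ o₂
  have : a3 * cj q a2 * cj q (((l ^ 2)⁻¹ - l) * ⟪ac g₂ e, z₁⟫) * ⟪e, z₁⟫ = 0 := by
    rw [← e13, e12] at u2 ⊢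
    linear_combination cj q a2 * u2 + u1 - ⟪e, ac g₂ e⟫ * (l * cj q l) * N2 - ⟪e, ac g₂ e⟫ * hN
  have a30 : a3 ≠ 0 := left_ne_zero_of_mul (N3 ▸ one_ne_zero)
  simp only [mul_eq_zero, a30, c2, n1, n2, cj_eq_zero, or_false, false_or] at this
  apply h3'
  field_simp at this
  linear_combination -this

end H41.BA
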