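import Mathlib
import Cfsg.Agent.Lib.Binary.U3A
import Cfsg.Agent.Lib.SL2.Invol
import Cfsg.Agent.Lib.SL2Elt.Order

/-!
# Binary actions of `SL₂(q)`
-/

set_option autoImplicit false

namespace H41.BA

open MulAction Matrix MatrixGroups H64.SL2

section general

variable {G Ω : Type*} [Group G] [MulAction G Ω]

theorem Bin.comm_of_selfCent' (hB : Bin G Ω) {α : Ω} {K Z : Subgroup G} (hK : stabilizer G α ≤ K)
    (hZ : ∀ z ∈ Z, ∀ x : Ω, z • x = x) (hZc : Z ≤ Subgroup.center G)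
    (hc : ∀ x ∈ K, ∀ y ∈ K, x * y = y * x)
    (hs : ∀ x ∈ K, x ∉ Z → ∀ g : G, g * x = x * g → g ∈ K)
    {a b c c₁ c₂ c₃ : G} (ha : (c₁⁻¹ * a * c₁) • α = α) (hb : (c₂⁻¹ * b * c₂) • α = α)
    (hc' : (c₃⁻¹ * c * c₃) • α = α) (h : a * b * c = 1) : a * b = b * a := by
  have cj : ∀ {x y z : G}, (z⁻¹ * x * z) * (z⁻¹ * y * z) = (z⁻¹ * y * z) * (z⁻¹ * x * z) ↔
      x * y = y * x := fun {x y z} => by
    constructor
    · intro e
      calc x * y = z * ((z⁻¹ * x * z) * (z⁻¹ * y * z)) * z⁻¹ := by group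
        _ = y * x := by rw [e]; group
    · intro e
      calc (z⁻¹ * x * z) * (z⁻¹ * y * z) = z⁻¹ * (x * y) * z := by group
        _ = _ := by rw [e]; group
  obtain ⟨k, k1, k2, k3⟩ := hB.tri' (smul_smul_eq_iff.mpr ha) (smul_smul_eq_iff.mpr hb)
    (smul_smul_eq_iff.mpr hc') h
  by_cases hk : k ∈ Z
  · rw [mul_smul, hZ k hk, smul_smul_eq_iff] at k3
    have e : a * c = c * a := cj.mp (hc _ (hK k3) _ (hK hc'))
    have : b = a⁻¹ * c⁻¹ := by
      calc b = a⁻¹ * (a * b * c) * c⁻¹ := by group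
        _ = _ := by rw [h]; group
    rw [this]
    calc a * (a⁻¹ * c⁻¹) = a⁻¹ * c⁻¹ * (c * a) * c⁻¹ := by group
      _ = a⁻¹ * c⁻¹ * (a * c) * c⁻¹ := by rw [e]
      _ = _ := by group
  · rw [smul_smul_eq_iff] at k1 k2
    have e : b * k = k * b := cj.mp (hc _ (hK hb) _ (hK k2))
    have h1 : c₁⁻¹ * k * c₁ ∉ Z := fun e' => hk (by
      have := Subgroup.mem_center_iff.mp (hZc e') c₁
      have e2 : k = c₁⁻¹ * k * c₁ := by
        calc k = c₁ * (c₁⁻¹ * k * c₁) * c₁⁻¹ := by group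
          _ = _ := by rw [this]; group
      rwa [e2])
    exact cj.mp (hc _ (hK ha) _ (hs _ (hK k1) h1 _ (cj.mpr e)))

theorem bin_congr {K Ω' : Type*} [Group K] [MulAction K Ω'] (e : G ≃* K) (f : Ω ≃ Ω')
    (hf : ∀ g x, f (g • x) = e g • f x) (h : Bin G Ω) : Bin K Ω' := by
  intro n I J hn H
  obtain ⟨g, hg⟩ := h n (f.symm ∘ I) (f.symm ∘ J) hn (fun i j hij => by
    obtain ⟨k, h1, h2⟩ := H i j hij
    refine ⟨e.symm k, f.injective ?_, f.injective ?_⟩ <;> simp [hf, h1, h2])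
  refine ⟨e g, fun i => ?_⟩
  have := congrArg f (hg i)
  simpa [hf] using this

theorem bin_map {K : Type*} [Group K] (e : G ≃* K) {H : Subgroup G} (h : Bin G (G ⧸ H)) :
    Bin K (K ⧸ H.map e.toMonoidHom) := by
  refine bin_congr (Ω := G ⧸ H) (Ω' := K ⧸ H.map e.toMonoidHom) e
    (Quotient.congr e.toEquiv (fun a b => ?_)) (fun g x => ?_) h
  · rw [QuotientGroup.leftRel_apply, QuotientGroup.leftRel_apply]
    constructor
    · intro h'
      exact ⟨_, h', by simp⟩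
    · rintro ⟨x, hx, e'⟩
      have : x = a⁻¹ * b := e.injective (by simpa using e')
      exact this ▸ hx
  · induction x using QuotientGroup.induction_on with | H x => ?_
    change ((e (g * x) : K) : K ⧸ H.map e.toMonoidHom) = ((e g * e x : K) : K ⧸ _)
    rw [map_mul]

theorem mem_center_map {P : Subgroup G} {x : G} :
    x ∈ (Subgroup.center P).map P.subtype ↔ x ∈ P ∧ ∀ y ∈ P, y * x = x * y := by
  constructor
  · rintro ⟨z, hz, rfl⟩
    exact ⟨z.2, fun y hy => congrArg Subtype.val (Subgroup.mem_center_iff.mp hz ⟨y, hy⟩)⟩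
  · rintro ⟨h1, h2⟩
    exact ⟨⟨x, h1⟩, Subgroup.mem_center_iff.mpr fun y => Subtype.ext (h2 y y.2), rfl⟩

theorem center_map_map {K : Type*} [Group K] (e : G ≃* K) (P : Subgroup G) :
    ((Subgroup.center P).map P.subtype).map e.toMonoidHom =
      (Subgroup.center (P.map e.toMonoidHom)).map (P.map e.toMonoidHom).subtype := by
  ext x
  obtain ⟨x, rfl⟩ := e.surjective x
  rw [mem_center_map]
  constructor
  · rintro ⟨y, hy, e'⟩
    obtain rfl : y = x := e.injective e'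
    obtain ⟨h1, h2⟩ := mem_center_map.mp hy
    refine ⟨⟨y, h1, rfl⟩, ?_⟩
    rintro _ ⟨z, hz, rfl⟩
    simpa using congrArg e (h2 z hz)
  · rintro ⟨⟨y, hy, e'⟩, h2⟩
    obtain rfl : y = x := e.injective e'
    refine ⟨y, mem_center_map.mpr ⟨hy, fun z hz => e.injective ?_⟩, rfl⟩
    simpa using h2 _ ⟨z, hz, rfl⟩

theorem map_map_symm {K : Type*} [Group K] (e : G ≃* K) (H : Subgroup G) :
    (H.map e.toMonoidHom).map e.symm.toMonoidHom = H := by
  rw [Subgroup.map_map]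
  convert Subgroup.map_id H
  ext; simp

end general

variable {F : Type*} [Field F] {Ω : Type*} [MulAction SL(2, F) Ω]

/-- upper unitriangular matrices -/
def uu (b : F) : SL(2, F) := mk 1 b 0 1 (by ring)

theorem sl2_no_torus (hB : Bin SL(2, F) Ω) {α : Ω} (hX : ∀ g : SL(2, F), g • α = α → g 1 0 = 0)
    {g : SL(2, F)} (hg : g • α = α) : g 0 0 ^ 4 = 1 := by
  by_contra h4
  have h10 := hX g hg
  have hd := det_eq g
  rw [h10, mul_zero, sub_zero] at hd
  set a := g 0 0 with ha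
  have ha0 : a ≠ 0 := left_ne_zero_of_mul (hd ▸ one_ne_zero)
  have h11 : g 1 1 = a⁻¹ := eq_inv_of_mul_eq_one_right hd
  have hn1 : 1 - a ^ 2 ≠ 0 := fun e => h4 (by linear_combination (-1 - a ^ 2) * e)
  have h1n : 1 + a ^ 2 ≠ 0 := fun e => h4 (by linear_combination (a ^ 2 - 1) * e)
  let t : SL(2, F) := mk a 0 0 a⁻¹ (by field_simp; ring)
  let x := uu (a * g 0 1 / (1 - a ^ 2))
  have hgt : x⁻¹ * g * x = t := by
    simp only [x, t, uu, ent, h10, h11, ← ha]
    refine ⟨by ring, by field_simp; ring, by ring, by ring⟩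
  have hX' : ∀ k : SL(2, F), k • x⁻¹ • α = x⁻¹ • α → k 1 0 = 0 := fun k hk => by
    have := hX _ (smul_smul_eq_iff.mp hk)
    simpa only [x, uu, ent, inv_inv, zero_mul, one_mul, zero_add, neg_zero, mul_zero, mul_one,
      add_zero] using this
  have ht : t • x⁻¹ • α = x⁻¹ • α := by rw [← hgt]; simp only [mul_smul, smul_inv_smul, hg]
  generalize x⁻¹ • α = β at hX' ht
  have hδ : t • comp (0 : F) • β = comp (0 : F) • β := by
    rw [smul_smul_eq_iff]
    have : (comp (0 : F))⁻¹ * t * comp 0 = t⁻¹ := by simp [t, H64.SL2.comp, ent]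
    rw [this, inv_smul_eq_iff, ht]
  obtain ⟨k, k1, k2, k3, k4⟩ := hB.frob (x := uu (a ^ 2 / (1 + a ^ 2))) (y := uu 1) ht hδ (by
    simp only [t, uu, ent]
    refine ⟨by field_simp; ring, by field_simp; ring, by ring, by field_simp; ring⟩)
  have e1 := hX' _ k1
  have e2 := hX' _ (smul_smul_eq_iff.mp k2)
  rw [← mul_smul (uu _)] at k3
  have e3 := hX' _ (smul_smul_eq_iff.mp k3)
  have e4 := hX' ((t * uu 1 * comp 0)⁻¹ * k * (uu 1 * comp 0)) (by
    simp only [mul_smul, k4, _root_.mul_inv_rev, inv_smul_smul])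
  have dk := det_eq k
  simp only [t, uu, H64.SL2.comp, ent, e1] at e2 e3 e4 dk
  have f2 : k 0 1 = 0 := by linear_combination -e2
  rw [f2] at e3 e4
  have f3 : k 0 0 = k 1 1 := by
    field_simp at e3
    have : (a ^ 2 * (1 + a ^ 2)) * (k 0 0 - k 1 1) = 0 := by linear_combination -e3
    exact sub_eq_zero.mp ((mul_eq_zero.mp this).resolve_left (mul_ne_zero (pow_ne_zero _ ha0) h1n))
  have k0 : k 1 1 ≠ 0 := fun e => by rw [e] at dk; simp at dk
  rw [f3] at e4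
  field_simp at e4
  have : k 1 1 * (1 - a ^ 2) = 0 := by linear_combination -e4
  exact hn1 ((mul_eq_zero.mp this).resolve_left k0)

theorem sl2_oneCl [Finite F] (h2 : (2 : F) = 0) : OneCl SL(2, F) := by
  have key : ∀ s : SL(2, F), orderOf s = 2 → IsConj (comp 0) s := fun s hs => by
    have h1 : s ∉ Subgroup.center SL(2, F) := by
      rw [center_eq_bot_of_two_eq_zero h2, Subgroup.mem_bot]
      exact H9.ne_one_of_orderOf_two hs
    have := (mem_center_or_tr_eq_zero_of_sq (g := s) (by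
      rw [H9.mul_self_of_orderOf_two hs]; exact Subgroup.one_mem _)).resolve_left h1
    exact this ▸ isConj_comp_of_two_eq_zero h2 h1
  exact fun s t hs ht => (key s hs).symm.trans (key t ht)

theorem mem_unitri {g : SL(2, F)} :
    g ∈ H10.unitriSL (Fin 2) F ↔ g 1 0 = 0 ∧ g 0 0 = 1 ∧ g 1 1 = 1 := H10.mem_unitriSL_two

theorem unitri_sq (h2 : (2 : F) = 0) {g : SL(2, F)} (hg : g ∈ H10.unitriSL (Fin 2) F) :
    g * g = 1 := by
  obtain ⟨h1, h3, h4⟩ := mem_unitri.mp hg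
  simp only [ent, h1, h3, h4]
  exact ⟨by ring, by linear_combination g 0 1 * h2, by ring, by ring⟩

theorem unitri_comm {g k : SL(2, F)} (hg : g ∈ H10.unitriSL (Fin 2) F)
    (hk : k ∈ H10.unitriSL (Fin 2) F) : g * k = k * g := by
  obtain ⟨h1, h3, h4⟩ := mem_unitri.mp hg
  obtain ⟨k1, k3, k4⟩ := mem_unitri.mp hk
  simp only [ent, h1, h3, h4, k1, k3, k4]
  simp [add_comm]

theorem sl2_even0 [Finite F] (h2 : (2 : F) = 0) (hB : Bin SL(2, F) Ω) [Finite Ω] {α : Ω}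
    (hα : stabilizer SL(2, F) α ≠ ⊤) (hs : uu (1 : F) • α = α) :
    stabilizer SL(2, F) α = H10.unitriSL (Fin 2) F := by
  have hu : uu (1 : F) ∈ H10.unitriSL (Fin 2) F := mem_unitri.mpr ⟨rfl, rfl, rfl⟩
  have hu1 : uu (1 : F) ≠ 1 := by simp [uu, ent]
  have hU : H10.unitriSL (Fin 2) F ≤ stabilizer SL(2, F) α := by
    intro g hg
    by_cases h1 : g = 1
    · rw [h1]; exact Subgroup.one_mem _
    exact hB.fix_of_commute (sl2_oneCl h2) (H9.orderOf_eq_two_of_mul_self hu1 (unitri_sq h2 hu))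
      (H9.orderOf_eq_two_of_mul_self h1 (unitri_sq h2 hg)) (unitri_comm hu hg) hs
  have hX : ∀ g : SL(2, F), g • α = α → g 1 0 = 0 := by
    intro g hg
    by_contra h
    apply hα
    rw [eq_top_iff, ← H10.unitriSL_two_sup_conj (g := g) (fun e => h (H10.mem_borelSL_two.mp e))]
    refine sup_le hU ?_
    rintro _ ⟨x, hx, rfl⟩
    exact (stabilizer _ α).mul_mem ((stabilizer _ α).mul_mem hg (hU hx))
      ((stabilizer _ α).inv_mem hg)
  refine le_antisymm (fun g hg => ?_) hU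
  have h4 := sl2_no_torus hB hX hg
  have h1 : g 0 0 = 1 := by
    have : (g 0 0 - 1) ^ 4 = 0 := by
      linear_combination h4 + (-2 * g 0 0 ^ 3 + 3 * g 0 0 ^ 2 - 2 * g 0 0 + 1) * h2
    exact sub_eq_zero.mp (pow_eq_zero_iff (by norm_num) |>.mp this)
  have hd := det_eq g
  rw [hX g hg, h1] at hd
  exact mem_unitri.mpr ⟨hX g hg, h1, by linear_combination hd⟩

theorem sl2_of_bin [Finite F] (h2 : (2 : F) = 0) {H : Subgroup SL(2, F)} (hH : H ≠ ⊤)
    (hev : Even (Nat.card H)) (hB : Bin SL(2, F) (SL(2, F) ⧸ H)) :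
    ∃ P : Sylow 2 SL(2, F), H = P := by
  have hchar : CharP F 2 := (CharP.charP_iff_prime_eq_zero Nat.prime_two).mpr h2
  obtain ⟨s, hs, ho⟩ := (H9.even_card_iff_exists_involution H).mp hev
  have hu : uu (1 : F) ∈ H10.unitriSL (Fin 2) F := mem_unitri.mpr ⟨rfl, rfl, rfl⟩
  obtain ⟨c, hc⟩ := isConj_iff.mp (sl2_oneCl h2 _ _ ho
    (H9.orderOf_eq_two_of_mul_self (x := uu (1 : F)) (by simp [uu, ent]) (unitri_sq h2 hu)))
  have st : ∀ g, g ∈ stabilizer SL(2, F) (c : SL(2, F) ⧸ H) ↔ c⁻¹ * g * c ∈ H := fun g =>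
    mem_stab_coe H c g
  have := sl2_even0 h2 hB (α := (c : SL(2, F) ⧸ H)) (fun e => hH (by
    rw [eq_top_iff]
    intro g _
    have := (st (c * g * c⁻¹)).mp (e ▸ Subgroup.mem_top _)
    convert this using 1; group)) ((st _).mpr (by rw [← hc]; convert hs using 1; group))
  refine ⟨c⁻¹ • H10.unitriSylowSL (Fin 2) F 2, ?_⟩
  ext g
  rw [Sylow.coe_subgroup_smul, Subgroup.mem_pointwise_smul_iff_inv_smul_mem]
  change _ ↔ _ ∈ H10.unitriSL (Fin 2) F
  rw [← this, st]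
  simp [mul_assoc]

theorem sl2_sylow [Finite F] (h2 : (2 : F) = 0) (P : Sylow 2 SL(2, F)) :
    ∃ c : SL(2, F), ∀ g, g ∈ (P : Subgroup SL(2, F)) ↔ c⁻¹ * g * c ∈ H10.unitriSL (Fin 2) F := by
  have hchar : CharP F 2 := (CharP.charP_iff_prime_eq_zero Nat.prime_two).mpr h2
  obtain ⟨c, rfl⟩ := exists_smul_eq SL(2, F) (H10.unitriSylowSL (Fin 2) F 2) P
  refine ⟨c, fun g => ?_⟩
  rw [Sylow.coe_subgroup_smul, Subgroup.mem_pointwise_smul_iff_inv_smul_mem]
  change _ ∈ H10.unitriSL (Fin 2) F ↔ _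
  simp [mul_assoc]

theorem sl2_sylow_comm [Finite F] (h2 : (2 : F) = 0) (P : Sylow 2 SL(2, F)) {x y : SL(2, F)}
    (hx : x ∈ (P : Subgroup SL(2, F))) (hy : y ∈ (P : Subgroup SL(2, F))) : x * y = y * x := by
  obtain ⟨c, hc⟩ := sl2_sylow h2 P
  have := unitri_comm ((hc x).mp hx) ((hc y).mp hy)
  calc x * y = c * ((c⁻¹ * x * c) * (c⁻¹ * y * c)) * c⁻¹ := by group
    _ = _ := by rw [this]; group

theorem sl2_bin_sylow [Finite F] (h2 : (2 : F) = 0) (P : Sylow 2 SL(2, F)) :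
    Bin SL(2, F) (SL(2, F) ⧸ (P : Subgroup SL(2, F))) := by
  obtain ⟨c, hc⟩ := sl2_sylow h2 P
  refine bin_of_elem (fun x hx => ?_) (fun g a b h1 h3 ha hb hab => ?_)
  · have := unitri_sq h2 ((hc x).mp hx)
    calc x * x = c * ((c⁻¹ * x * c) * (c⁻¹ * x * c)) * c⁻¹ := by group
      _ = _ := by rw [this]; group
  have cne : ∀ {x a : SL(2, F)}, a ≠ 1 → x⁻¹ * a * x ≠ 1 := fun {x a} h1 e => h1 (by
    calc a = x * (x⁻¹ * a * x) * x⁻¹ := by group
      _ = 1 := by rw [e]; group)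
  have hle : H10.unitriSL (Fin 2) F ≤ H10.borelSL (Fin 2) F := fun x hx =>
    H10.mem_borelSL_two.mpr (mem_unitri.mp hx).1
  have b1 : c⁻¹ * b * c ∈ H10.borelSL (Fin 2) F :=
    H10.mem_borelSL_two_of_conj ((hc a).mp ha) (cne h1) (by
      have : c⁻¹ * b * c * (c⁻¹ * a * c) * (c⁻¹ * b * c)⁻¹ = c⁻¹ * a * c := by
        calc _ = c⁻¹ * (b * a) * b⁻¹ * c := by group
          _ = _ := by rw [← hab]; group
      rw [this]; exact hle ((hc a).mp ha))
  have b2 : c⁻¹ * g * c ∈ H10.borelSL (Fin 2) F :=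
    H10.mem_borelSL_two_of_conj ((hc _).mp hb) (cne (cne h3)) (by convert b1 using 1; group)
  rw [← H10.normalizer_unitriSL_two, Subgroup.mem_normalizer_iff] at b2
  rw [Subgroup.mem_normalizer_iff]
  intro x
  rw [hc, hc, b2]
  group

end H41.BA
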