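import Mathlib
import Cfsg.Agent.Lib.Binary.SL2
import Cfsg.Agent.Lib.SL2.Borel

/-!
# Binary actions of `PSL₂(q)`: stabilisers of odd order
-/

set_option autoImplicit false

namespace H41.BA

open MulAction Matrix MatrixGroups H64.SL2

variable {F : Type*} [Field F] {Ω : Type*} [MulAction SL(2, F) Ω]

theorem center_triv (hZ : ∀ x : Ω, (-1 : SL(2, F)) • x = x) :
    ∀ z ∈ Subgroup.center SL(2, F), ∀ x : Ω, z • x = x := fun z hz x => by
  rcases mem_center_iff'.mp hz with rfl | rfl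
  · exact one_smul _ _
  · exact hZ x

theorem sl2_comm (hB : Bin SL(2, F) Ω) (hZ : ∀ x : Ω, (-1 : SL(2, F)) • x = x) {α : Ω}
    {g : SL(2, F)} (hg : g ∉ Subgroup.center SL(2, F))
    (hK : stabilizer SL(2, F) α ≤ Subgroup.centralizer {g})
    {a b c c₁ c₂ c₃ : SL(2, F)} (ha : (c₁⁻¹ * a * c₁) • α = α) (hb : (c₂⁻¹ * b * c₂) • α = α)
    (hc : (c₃⁻¹ * c * c₃) • α = α) (h : a * b * c = 1) : a * b = b * a :=
  hB.comm_of_selfCent' hK (center_triv hZ) le_rfl
    (fun _ hx _ hy => commute_of_mem_centralizer hg hx hy)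
    (fun x hx hx' k hk => by
      rw [← centralizer_eq_of_mem hg hx hx']
      exact Subgroup.mem_centralizer_singleton_iff.mpr hk) ha hb hc h

theorem neg_smul_eq (hZ : ∀ x : Ω, (-1 : SL(2, F)) • x = x) (g : SL(2, F)) (x : Ω) :
    (-g) • x = g • x := by
  rw [← neg_one_mul, mul_smul, hZ]

theorem sl2_wild (h2 : (2 : F) ≠ 0) (hB : Bin SL(2, F) Ω) (hZ : ∀ x : Ω, (-1 : SL(2, F)) • x = x)
    {α : Ω} (hX : ∀ g : SL(2, F), g • α = α → g 1 0 = 0)
    (hodd : ∀ g : SL(2, F), g • α = α → tr g ≠ 0) {u : SL(2, F)} (hu : u • α = α) :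
    u ∈ Subgroup.center SL(2, F) := by
  have key : ∀ g : SL(2, F), g • α = α → ∃ x, g = uu x ∨ g = -uu x := fun g hg => by
    have h4 := sl2_no_torus hB hX hg
    have h10 := hX g hg
    have hd := det_eq g
    rw [h10] at hd
    have h0 : g 0 0 ≠ 0 := fun e => by rw [e] at hd; simp at hd
    have h1 : g 0 0 ^ 2 + 1 ≠ 0 := fun e => hodd g hg (by
      refine mul_left_cancel₀ h0 ?_
      unfold tr
      linear_combination e + hd)
    have h3 : (g 0 0 - 1) * (g 0 0 + 1) = 0 :=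
      mul_left_cancel₀ h1 (by linear_combination h4)
    rcases mul_eq_zero.mp h3 with e | e
    · have e1 : g 0 0 = 1 := by linear_combination e
      rw [e1] at hd
      exact ⟨g 0 1, Or.inl (ext' e1 rfl h10 (by simp only [uu, ent]; linear_combination hd))⟩
    · have e1 : g 0 0 = -1 := by linear_combination e
      rw [e1] at hd
      refine ⟨-g 0 1, Or.inr ?_⟩
      simp only [uu, ent, e1, h10]
      exact ⟨trivial, by ring, by ring, by linear_combination -hd⟩
  by_contra hn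
  obtain ⟨x, hx⟩ := key u hu
  have hux : uu x • α = α := by
    rcases hx with rfl | rfl
    · exact hu
    · rwa [neg_smul_eq hZ] at hu
  have hc : uu x ∉ Subgroup.center SL(2, F) := by
    rcases hx with rfl | rfl
    · exact hn
    · exact fun e => hn (neg_mem_center_iff.mpr e)
  have hx0 : x ≠ 0 := fun e => hc (by rw [e, mem_center_iff_entries]; simp [uu, ent])
  have hK : stabilizer SL(2, F) α ≤ Subgroup.centralizer {uu x} := fun g hg => by
    rw [Subgroup.mem_centralizer_singleton_iff]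
    obtain ⟨y, rfl | rfl⟩ := key g hg <;> simp [uu, ent, add_comm]
  let db : SL(2, F) := mk 0 (-x / 2) (2 / x) 0 (by field_simp; ring)
  let dc : SL(2, F) := mk 1 0 (2 / x) 1 (by ring)
  have := sl2_comm hB hZ hc hK (a := uu x) (b := db * uu x * db⁻¹) (c := -(dc * uu x * dc⁻¹))
    (c₁ := 1) (c₂ := db) (c₃ := dc) (by simpa using hux) (by simpa [mul_assoc] using hux)
    (by rw [mul_neg, neg_mul, neg_smul_eq hZ]; simpa [mul_assoc] using hux) (by
      simp only [db, dc, uu, ent]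
      refine ⟨?_, ?_, ?_, ?_⟩ <;> field_simp <;> ring)
  simp only [db, uu, ent] at this
  have h := this.1
  field_simp at h
  apply h2
  have : (2 : F) ^ 4 = 0 := by linear_combination -h
  exact pow_eq_zero_iff four_ne_zero |>.mp this

theorem sl2_tri [Finite F] (hB : Bin SL(2, F) Ω) (hZ : ∀ x : Ω, (-1 : SL(2, F)) • x = x) {α : Ω}
    {g : SL(2, F)} (hg : tr g ^ 2 ≠ 4) (hgα : g • α = α)
    (hK : stabilizer SL(2, F) α ≤ Subgroup.centralizer {g}) {a b : SL(2, F)} (ha : tr a = tr g)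
    (hb : tr b = tr g) (hab : tr (a * b) = tr g ∨ tr (a * b) = -tr g) : a * b = b * a := by
  have key : ∀ x : SL(2, F), tr x = tr g ∨ tr x = -tr g → ∃ c : SL(2, F), (c⁻¹ * x * c) • α = α := by
    rintro x (h | h)
    · obtain ⟨c, hc⟩ := isConj_iff.mp (isConj_of_tr_eq hg h.symm)
      exact ⟨c, by rw [← hc]; simpa [mul_assoc] using hgα⟩
    · obtain ⟨c, hc⟩ := isConj_iff.mp (isConj_of_tr_eq (g := -g) (h := x)
        (by rw [tr_neg, neg_sq]; exact hg) (by rw [tr_neg, h]))
      refine ⟨c, ?_⟩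
      rw [← hc]
      have : c⁻¹ * (c * -g * c⁻¹) * c = -g := by group
      rw [this, neg_smul_eq hZ, hgα]
  obtain ⟨c₁, h1⟩ := key a (Or.inl ha)
  obtain ⟨c₂, h2⟩ := key b (Or.inl hb)
  obtain ⟨c₃, h3⟩ := key (a * b)⁻¹ (by rwa [tr_inv])
  exact sl2_comm hB hZ (not_mem_center_of_tr hg) hK h1 h2 h3 (mul_inv_cancel _)

theorem sl2_tame [Finite F] (hB : Bin SL(2, F) Ω) (hZ : ∀ x : Ω, (-1 : SL(2, F)) • x = x) {α : Ω}
    {g : SL(2, F)} (hg : tr g ^ 2 ≠ 4) (hgα : g • α = α)
    (hK : stabilizer SL(2, F) α ≤ Subgroup.centralizer {g}) :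
    (2 : F) = 0 ∧ tr g = 1 ∧ ∀ ω : F, ω ^ 2 + ω + 1 ≠ 0 := by
  set τ := tr g with hτ
  have key : ∀ σ : F, σ = τ ∨ σ = -τ → σ = τ ^ 2 - 2 := fun σ hσ => by
    obtain ⟨x, z, h⟩ := exists_conic_point (a := 1) (b := τ) (c := 1)
      (fun e => hg (by linear_combination e)) (-τ) (σ - τ ^ 2) 1
    let b : SL(2, F) := mk x (σ + z - τ ^ 2 + τ * x) z (τ - x) (by linear_combination -h)
    have hb : tr b = τ := by simp [b, tr, ent]
    have hab : tr (H64.SL2.comp τ * b) = σ := by simp only [b, tr, H64.SL2.comp, ent]; ring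
    have hc := sl2_tri hB hZ hg hgα hK (tr_comp τ) hb (by rw [hab]; exact hσ)
    have hτ' : tr (H64.SL2.comp τ) ^ 2 ≠ 4 := by rw [tr_comp]; exact hg
    rcases eq_or_eq_inv_of_tr_eq hτ' (Subgroup.mem_centralizer_singleton_iff.mpr hc.symm)
      (by rw [hb, tr_comp]) with e | e
    · rw [e] at hab
      rw [← hab]; simp only [tr, H64.SL2.comp, ent]; ring
    · rw [e, mul_inv_cancel, tr_one] at hab
      exfalso
      apply hg
      rcases hσ with e' | e'
      · rw [← e', ← hab]; norm_num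
      · rw [← neg_sq, ← e', ← hab]; norm_num
  have k1 := key τ (Or.inl rfl)
  have k2 := key (-τ) (Or.inr rfl)
  have e1 : τ = -1 := by
    have : (τ - 2) * (τ + 1) = 0 := by linear_combination -k1
    rcases mul_eq_zero.mp this with e | e
    · exact absurd (by linear_combination (τ + 2) * e) hg
    · linear_combination e
  have e2 : τ = 1 := by
    have : (τ + 2) * (τ - 1) = 0 := by linear_combination -k2
    rcases mul_eq_zero.mp this with e | e
    · exact absurd (by linear_combination (τ - 2) * e) hg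
    · linear_combination e
  have h2 : (2 : F) = 0 := by linear_combination e1 - e2
  refine ⟨h2, e2, fun ω hω => ?_⟩
  have h3 : ω * ω ^ 2 - 0 = 1 := by linear_combination (ω - 1) * hω
  have := sl2_tri hB hZ hg hgα hK (a := mk ω 0 0 (ω ^ 2) (by linear_combination h3))
    (b := mk ω 1 0 (ω ^ 2) (by linear_combination h3))
    (by rw [← hτ, e2]; simp only [tr, ent]; linear_combination hω - h2)
    (by rw [← hτ, e2]; simp only [tr, ent]; linear_combination hω - h2)
    (Or.inl (by rw [← hτ, e2]; simp only [tr, ent]; linear_combination hω - h2 + ω * h3))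
  simp only [ent] at this
  have h := this.2.1
  have : (1 : F) = 0 := by linear_combination hω + h - ω * h2
  exact one_ne_zero this

theorem eq_of_tr_one [Finite F] (h2 : (2 : F) = 0) (hω : ∀ ω : F, ω ^ 2 + ω + 1 ≠ 0)
    {A B : SL(2, F)} (hA : tr A = 1) (hB : tr B = 1) (hAB : tr (A * B) = 1) : A = B := by
  have h14 : (1 : F) ^ 2 ≠ 4 := fun e => one_ne_zero (α := F) (by linear_combination e + 2 * h2)
  obtain ⟨c, hc⟩ := isConj_iff.mp (isConj_comp (g := A) (by rw [hA]; exact h14))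
  rw [hA] at hc
  subst hc
  obtain ⟨D, rfl⟩ : ∃ D, B = c * D * c⁻¹ := ⟨c⁻¹ * B * c, by group⟩
  have e : c * H64.SL2.comp 1 * c⁻¹ * (c * D * c⁻¹) = c * (H64.SL2.comp 1 * D) * c⁻¹ := by group
  rw [e, tr_conj] at hAB
  rw [tr_conj] at hB
  congr 2
  have hd := det_eq D
  simp only [tr, H64.SL2.comp, ent] at hAB hB ⊢
  have h11 : D 1 1 = 1 - D 0 0 := by linear_combination hB
  have h01 : D 0 1 = D 0 0 + D 1 0 := by linear_combination hAB - h11
  rw [h11, h01] at hd
  have hq : D 0 0 ^ 2 + D 0 0 * (D 1 0 - 1) + (D 1 0 - 1) ^ 2 = 0 := by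
    linear_combination -hd - D 1 0 * h2
  have hs : D 1 0 - 1 = 0 := by
    by_contra hs
    apply hω (D 0 0 / (D 1 0 - 1))
    field_simp
    linear_combination hq
  have hx : D 0 0 = 0 := by
    rw [hs] at hq
    exact pow_eq_zero_iff two_ne_zero |>.mp (by linear_combination hq)
  exact ⟨hx.symm, by linear_combination -h01 - hx - hs - h2, by linear_combination -hs,
    by linear_combination -h11 + hx⟩

theorem sl2_bin_three [Finite F] (h2 : (2 : F) = 0) (hω : ∀ ω : F, ω ^ 2 + ω + 1 ≠ 0)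
    {H : Subgroup SL(2, F)} (hH : Nat.card H = 3) : Bin SL(2, F) (SL(2, F) ⧸ H) := by
  have : Fact (Nat.card H).Prime := ⟨hH ▸ Nat.prime_three⟩
  have cne : ∀ {x a : SL(2, F)}, a ≠ 1 → x⁻¹ * a * x ≠ 1 := fun {x a} h1 e => h1 (by
    calc a = x * (x⁻¹ * a * x) * x⁻¹ := by group
      _ = 1 := by rw [e]; group)
  have hz : ∀ a ∈ H, a ≠ 1 → Subgroup.zpowers a = H := fun a ha h1 => by
    have := zpowers_eq_top_of_prime_card (G := H) (g := ⟨a, ha⟩) rfl
      (fun e => h1 (congrArg Subtype.val e))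
    have h3 := congrArg (Subgroup.map H.subtype) this
    rwa [MonoidHom.map_zpowers, ← MonoidHom.range_eq_map, Subgroup.range_subtype] at h3
  have hTI : ∀ g a : SL(2, F), a ≠ 1 → a ∈ H → g⁻¹ * a * g ∈ H →
      g ∈ Subgroup.normalizer (H : Set SL(2, F)) := fun g a h1 ha hg => by
    rw [← Subgroup.inv_mem_iff]
    refine Subgroup.mem_normalizer_fintype ?_
    intro n hn
    rw [← hz a ha h1] at hn
    obtain ⟨k, rfl⟩ := hn
    have := H.zpow_mem hg k
    have e := conj_zpow (a := g⁻¹) (b := a) (i := k)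
    rw [inv_inv] at e ⊢
    rwa [e] at this
  have htr : ∀ g a : SL(2, F), a ≠ 1 → g⁻¹ * a * g ∈ H → tr a = 1 := fun g a h1 ha => by
    have h3 : (g⁻¹ * a * g) ^ 3 = 1 := by
      have := pow_card_eq_one' (x := (⟨_, ha⟩ : H))
      rw [hH] at this
      exact congrArg Subtype.val this
    have h4 := (H29.psl_pow_three_eq_one_iff (g := g⁻¹ * a * g)).mp (by
      rw [← QuotientGroup.mk_pow, h3]; rfl)
    have h5 := h4.resolve_right (fun e => cne h1 (proj_injective_of_two_eq_zero h2 e))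
    rw [← tr_eq_trace] at h5
    have h6 := tr_conj a g⁻¹
    rw [inv_inv] at h6
    rw [h6] at h5
    have : (tr a - 1) ^ 2 = 0 := by linear_combination h5 + (1 - tr a) * h2
    exact sub_eq_zero.mp (pow_eq_zero_iff two_ne_zero |>.mp this)
  refine bin_of_ti' hTI (fun g k a b h1 h3 hab ha hb hc => ?_)
  have := eq_of_tr_one h2 hω (A := a⁻¹) (B := b) (by rw [tr_inv]; exact htr 1 a h1 (by simpa using ha))
    (htr g b h3 hb) (htr k _ (fun e => hab (inv_mul_eq_one.mp e)) hc)
  exact hTI g b h3 (this ▸ H.inv_mem ha) hb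

end H41.BA
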