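import Mathlib
import Cfsg.Agent.Lib.Binary.Basic
import Cfsg.Agent.Lib.Suzuki.Classes

/-!
# Binary actions of the Suzuki groups
-/

set_option autoImplicit false

namespace H41.BA

open MulAction H14.Sz H14.Sz.Model

variable {G : Type*} [Group G] {F : Type*} [Field F] [Fintype F] {m : ℕ} [hz : SzF F m]

local notation "θ" => th F
local notation "q" => Fintype.card F

variable (S : Model G F m) {Ω : Type*} [MulAction G Ω]

include hz in
theorem sz_add_self (x : F) : x + x = 0 := by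
  rw [← two_mul, two_eq_zero' (F := F), zero_mul]

include S in
theorem sz_oneCl : OneCl G := fun _ _ hs ht =>
  S.isConj_of_involution (H9.mul_self_of_orderOf_two hs) (H9.ne_one_of_orderOf_two hs)
    (H9.mul_self_of_orderOf_two ht) (H9.ne_one_of_orderOf_two ht)

theorem sz_eq_top {M : Subgroup G} (hZ : S.Z ≤ M) (hB : ¬ M ≤ S.B) : M = ⊤ := by
  obtain ⟨g, hg, hgB⟩ := SetLike.not_le_iff_exists.mp hB
  obtain ⟨x, y, hxy⟩ := S.exists_pt_of_ne (p := g • S.inf) hgB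
  let M' := M.comap (MulAut.conj (S.u x y)).toMonoidHom
  have mem : ∀ z, z ∈ M' ↔ S.u x y * z * (S.u x y)⁻¹ ∈ M := fun _ => Iff.rfl
  have hZ' : S.Z ≤ M' := fun z hz' => hZ (S.conj_mem_Z (S.u_mem_B x y) hz')
  have h2 : (S.invFix M' (S.pt 0 0)).Nonempty := by
    refine ⟨(S.u x y)⁻¹ * (g * S.u 0 1 * g⁻¹) * S.u x y, ?_, ?_, ?_, ?_⟩
    · rw [mem]
      have := M.mul_mem (M.mul_mem hg (hZ (S.u_mem_Z 1))) (M.inv_mem hg)
      convert this using 1; group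
    · calc _ = (S.u x y)⁻¹ * g * (S.u 0 1 * S.u 0 1) * g⁻¹ * S.u x y := by group
        _ = 1 := by rw [S.u_zero_sq]; group
    · intro e
      have : S.u 0 1 = 1 := by
        calc S.u 0 1 = g⁻¹ * S.u x y * ((S.u x y)⁻¹ * (g * S.u 0 1 * g⁻¹) * S.u x y) *
              (S.u x y)⁻¹ * g := by group
          _ = 1 := by rw [e]; group
      simpa using S.u_eq_one.mp this
    · simp only [mul_smul]
      rw [S.u_smul_zero, ← hxy, inv_smul_smul, S.u_smul_inf, hxy, inv_smul_eq_iff, S.u_smul_zero]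
  have hH : S.H ≤ M' := by
    intro z hz'
    obtain ⟨k, rfl⟩ := S.mem_H.mp hz'
    obtain ⟨l, hl, e⟩ := S.exists_h_mem (hZ' (S.u_mem_Z 1)) h2 (b := θ k * k)
      (mul_ne_zero (th_ne_zero k.ne_zero) k.ne_zero) (hZ' (S.u_mem_Z _))
    rwa [← Units.ext (th_mul_self_injective e)]
  obtain ⟨c, hc0, hc1⟩ := exists_ne_zero_ne_one F
  obtain ⟨F₀, -, hF₀⟩ := S.eq_subGrp (hZ' (S.u_mem_Z 1)) h2 hc0 hc1 (hZ' (S.u_mem_Z c))
  have hU : S.U ≤ M' := S.U_le_of_H_le hH one_ne_zero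
    (hF₀ ▸ S.u_mem_subGrp F₀.one_mem F₀.zero_mem)
  have : M' = ⊤ := S.eq_top_of_U_le hU (fun h => S.w_not_mem_B (h (hF₀ ▸ S.w_mem_subGrp F₀)))
  rw [eq_top_iff]
  intro z _
  have : (S.u x y)⁻¹ * z * S.u x y ∈ M' := this ▸ Subgroup.mem_top _
  rw [mem] at this
  convert this using 1; group

theorem sz_fix {α : Ω} (hB : stabilizer G α ≤ S.B) {c g : G} (h : g • c • α = c • α) :
    g • c • S.inf = c • S.inf := by
  rw [smul_smul_eq_iff] at h ⊢
  exact hB h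

/-- no torus element in the stabiliser -/
theorem sz_no_h (hB : Bin G Ω) {α : Ω} (hM : stabilizer G α ≤ S.B) {k : Fˣ}
    (hk : S.h k • α = α) : k = 1 := by
  by_contra hk1
  set n : F := θ k * k with hn
  have hn1 : n ≠ 1 := fun e => hk1 (Units.ext (th_mul_self_eq_one e))
  have hn0 : n ≠ 0 := mul_ne_zero (th_ne_zero k.ne_zero) k.ne_zero
  have h1n : 1 + n ≠ 0 := fun e => hn1 (by
    have := sz_add_self (m := m) n
    linear_combination this - e)
  set c : F := n / (1 + n) with hc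
  have hc0 : c ≠ 0 := div_ne_zero hn0 h1n
  have hδ : S.h k • S.w • α = S.w • α := by
    rw [smul_smul_eq_iff, S.w_inv, S.w_mul_h, mul_assoc, S.w_mul_w, mul_one, inv_smul_eq_iff, hk]
  have hu : ∀ b : F, S.h k • S.u 0 b • S.w • α = S.u 0 (n * b) • S.w • α := fun b => by
    rw [← mul_smul, S.h_mul_u, mul_smul, hδ, mul_zero]
  have ui : ∀ b : F, (S.u 0 b)⁻¹ = S.u 0 b := fun b =>
    (eq_inv_of_mul_eq_one_left (S.u_zero_sq b)).symm
  obtain ⟨g, g1, g2, g3, g4⟩ := hB.quad (a := S.h k) (b := S.u 0 c * S.h k * S.h k * S.u 0 c)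
    (γ := S.u 0 c • S.w • α) (ε := S.u 0 1 • S.w • α) hk hδ
    (by simp only [mul_smul]
        rw [← mul_smul (S.u 0 c) (S.u 0 c), S.u_zero_sq, one_smul, hδ, hδ])
    (by simp only [mul_smul]
        rw [← mul_smul (S.u 0 c) (S.u 0 1), S.u_zero_mul, hu, hu, hu, ← mul_smul (S.u 0 c),
          S.u_zero_mul]
        congr 2
        have h2 : (2 : F) = 0 := two_eq_zero'
        rw [hc]; field_simp
        linear_combination (-n ^ 2) * h2)
  have p1 : g • S.inf = S.inf := hM g1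
  have p2 := sz_fix S hM g2
  have p3 := sz_fix S hM (c := S.u 0 c * S.w) (by simpa only [mul_smul] using g3)
  rw [mul_smul] at p3
  rw [S.w_smul_inf] at p2 p3
  rw [S.u_smul_zero] at p3
  have := S.eq_one_of_fix_three (S.inf_ne_pt 0 0) (fun e => hc0 (S.pt_inj.mp e).2.symm)
    (S.inf_ne_pt 0 c) p1 p2 p3
  rw [this, one_smul] at g4
  have p4 := sz_fix S hM (c := S.u 0 1 * S.w) (g := S.h k) (by simpa only [mul_smul] using g4.symm)
  rw [mul_smul, S.w_smul_inf, S.u_smul_zero, S.h_smul_pt, S.pt_inj, mul_one] at p4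
  exact hn1 p4.2

theorem sz_le_U (hB : Bin G Ω) {α : Ω} (hM : stabilizer G α ≤ S.B) : stabilizer G α ≤ S.U := by
  intro g hg
  rcases S.mem_U_or_conj_H (hM hg) with h | ⟨x, hx, h⟩
  · exact h
  obtain ⟨k, hk⟩ := S.mem_H.mp (S.mem_conj_H.mp h)
  have hM' : stabilizer G (x⁻¹ • α) ≤ S.B := by
    intro z hz'
    rw [mem_stabilizer_iff, smul_smul_eq_iff, inv_inv] at hz'
    have := S.B.mul_mem (S.B.mul_mem (S.B.inv_mem (S.U_le_B hx)) (hM hz')) (S.U_le_B hx)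
    convert this using 1; group
  have := sz_no_h S hB hM' (k := k) (by
    rw [smul_smul_eq_iff, ← hk]
    have : g • α = α := hg
    convert this using 2; group)
  rw [this, map_one] at hk
  have : g = 1 := by
    calc g = x * (x⁻¹ * g * x) * x⁻¹ := by group
      _ = 1 := by rw [hk]; group
  rw [this]; exact S.U.one_mem

theorem sz_wu_pow : (S.w * S.u 1 0) ^ 4 = 1 := by
  have h2 : (1 : F) + 1 = 0 := sz_add_self (m := m) 1
  have n10 : nrm (1 : F) 0 = 1 := by simp [nrm_def]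
  have n01 : nrm (0 : F) 1 = 1 := by simp [nrm_def]
  have n11 : nrm (1 : F) 1 = 1 := by simp [nrm_def, h2]
  have a1 : (S.w * S.u 1 0) • S.inf = S.pt 0 0 := by rw [mul_smul, S.u_smul_inf, S.w_smul_inf]
  have a2 : (S.w * S.u 1 0) • S.pt 0 0 = S.pt 0 1 := by
    rw [mul_smul, S.u_smul_zero, S.w_smul_pt (by rw [n10]; exact one_ne_zero), n10]; simp
  have a3 : (S.w * S.u 1 0) • S.pt 0 1 = S.pt 1 1 := by
    rw [mul_smul, S.u_smul_pt]
    simp only [zero_add, add_zero, mul_zero]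
    rw [S.w_smul_pt (by rw [n11]; exact one_ne_zero), n11]; simp
  have a4 : (S.w * S.u 1 0) • S.pt 1 1 = S.inf := by
    rw [mul_smul, S.u_smul_pt]
    simp only [add_zero, map_one, mul_one, h2]
    exact S.w_smul_zero
  have a5 : (S.w * S.u 1 0) • S.pt 1 0 = S.pt 1 0 := by
    rw [mul_smul, S.u_smul_pt]
    simp only [zero_add, add_zero, map_one, mul_one, h2]
    rw [S.w_smul_pt (by rw [n01]; exact one_ne_zero), n01]; simp
  refine S.eq_one_of_fix_three (S.inf_ne_pt 0 0) (c := S.pt 1 0)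
    (fun e => zero_ne_one (S.pt_inj.mp e).1) (S.inf_ne_pt 1 0) ?_ ?_ ?_ <;>
  simp only [pow_succ, pow_zero, one_mul, mul_smul (_ * (S.w * S.u 1 0)), mul_smul (S.w * S.u 1 0),
    a1, a2, a3, a4, a5]

theorem sz_le_Z (hB : Bin G Ω) {α : Ω} (hZ : S.Z ≤ stabilizer G α) (hM : stabilizer G α ≤ S.U) :
    stabilizer G α ≤ S.Z := by
  intro g hg
  obtain ⟨a, b, rfl⟩ := S.mem_U.mp (hM hg)
  rw [S.u_mem_Z_iff]
  by_contra ha
  have hMB : stabilizer G α ≤ S.B := hM.trans S.U_le_B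
  have key : ∀ x : G, x ^ 4 = 1 → ∃ c : G, x • c • α = c • α := by
    intro x hx
    obtain ⟨c, hc⟩ := S.exists_conj_U_mem (x := x) (n := 2) hx
    obtain ⟨a', b', e⟩ := S.mem_U.mp (S.mem_conj_U.mp hc)
    by_cases ha' : a' = 0
    · refine ⟨c, smul_smul_eq_iff.mpr (hZ ?_)⟩
      rw [e, S.u_mem_Z_iff, ha']
    · let k : Fˣ := Units.mk0 (a / a') (div_ne_zero ha ha')
      refine ⟨c * (S.h k)⁻¹, smul_smul_eq_iff.mpr ?_⟩
      have : (c * (S.h k)⁻¹)⁻¹ * x * (c * (S.h k)⁻¹) =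
          S.u a b * S.u 0 (b + θ k * k * b') := by
        rw [show (c * (S.h k)⁻¹)⁻¹ * x * (c * (S.h k)⁻¹) = S.h k * (c⁻¹ * x * c) * (S.h k)⁻¹ by
          group, e, S.h_conj_u, S.u_mul, S.u_inj]
        refine ⟨by simp [k, ha'], ?_⟩
        rw [← add_assoc, sz_add_self (m := m) b]; simp
      rw [this]
      exact (stabilizer G α).mul_mem hg (hZ (S.u_mem_Z _))
  obtain ⟨c₁, h₁⟩ := key S.w (by rw [show (4 : ℕ) = 2 * 2 by rfl, pow_mul, pow_two S.w, S.w_mul_w,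
    one_pow])
  obtain ⟨c₂, h₂⟩ := key (S.u 1 0) (S.u_pow_four 1 0)
  obtain ⟨c₃, h₃⟩ := key (S.w * S.u 1 0)⁻¹ (by rw [inv_pow, sz_wu_pow, inv_one])
  obtain ⟨k, k1, k2, k3⟩ := hB.tri' h₁ h₂ h₃ (mul_inv_cancel _)
  have hu1 : S.u 1 0 ≠ 1 := fun e => one_ne_zero (S.u_eq_one.mp e).1
  have p2 : c₂ • S.inf = S.inf := S.fix_of_u hu1 (sz_fix S hMB h₂)
  have p1 : c₁ • S.inf ≠ S.inf := fun e => S.w_not_mem_B (by
    have := sz_fix S hMB h₁
    rwa [e] at this)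
  have hk : k = 1 := by
    by_contra hk
    have h1 : c₂⁻¹ * k * c₂ ≠ 1 := fun e' => hk (by
      calc k = c₂ * (c₂⁻¹ * k * c₂) * c₂⁻¹ := by group
        _ = 1 := by rw [e']; group)
    have := S.fix_of_mem_U (hM (smul_smul_eq_iff.mp k2)) h1 (p := c₂⁻¹ • c₁ • S.inf) (by
      rw [mul_smul, mul_smul, smul_inv_smul, sz_fix S hMB k1])
    rw [inv_smul_eq_iff, p2] at this
    exact p1 this
  rw [hk, mul_one] at k3
  have a1 := sz_fix S hMB k3
  have a2 := sz_fix S hMB h₃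
  rw [inv_smul_eq_iff, mul_smul, eq_comm, smul_eq_iff_eq_inv_smul, S.w_inv, a1] at a2
  rw [S.fix_of_u hu1 a2] at a1
  exact S.w_not_mem_B a1

theorem sz_even (hB : Bin G Ω) [Finite Ω] {α : Ω} (hα : stabilizer G α ≠ ⊤) {s : G}
    (hs : orderOf s = 2) (hsα : s • α = α) : ∃ g : G, stabilizer G α = (S.conj g).Z := by
  have := S.finite
  obtain ⟨g, hg⟩ := S.exists_conj_Z_mem (H9.mul_self_of_orderOf_two hs)
  refine ⟨g, ?_⟩
  generalize S.conj g = T at hg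
  have hZ : T.Z ≤ stabilizer G α := by
    intro z hz'
    by_cases h1 : z = 1
    · rw [h1]; exact Subgroup.one_mem _
    exact hB.fix_of_commute (sz_oneCl T) hs
      (H9.orderOf_eq_two_of_mul_self h1 (T.mem_Z_iff.mp hz').2)
      (T.commute_of_mem_Z (T.Z_le_U hg) hz') hsα
  have hMB : stabilizer G α ≤ T.B := by
    by_contra h
    exact hα (sz_eq_top T hZ h)
  exact le_antisymm (sz_le_Z T hB hZ (sz_le_U T hB hMB)) hZ

theorem sz_bin_Z : Bin G (G ⧸ S.Z) := by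
  refine bin_of_elem (fun x hx => (S.mem_Z_iff.mp hx).2) (fun g a b h1 h2 ha hb e => ?_)
  rw [S.normalizer_Z]
  have hbU : b ∈ S.U := S.mem_U_of_commute (S.Z_le_U ha) h1 e.symm
  refine S.mem_B_of_conj_mem_U (S.Z_le_U hb) (Model.conj_ne_one h2) ?_
  convert S.U_le_B hbU using 1; group

/-! ### odd order -/

theorem sz_comm_B {x y : G} (hx : x ∈ S.B) (hy : y ∈ S.B) : x * y * (y * x)⁻¹ ∈ S.U := by
  obtain ⟨a, b, k, rfl⟩ := S.mem_B_iff.mp hx
  obtain ⟨c, d, l, rfl⟩ := S.mem_B_iff.mp hy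
  have e1 : S.u a b * S.h k * (S.u c d * S.h l) =
      S.u a b * (S.h k * S.u c d * (S.h k)⁻¹) * (S.h k * S.h l) := by group
  have e2 : S.u c d * S.h l * (S.u a b * S.h k) =
      S.u c d * (S.h l * S.u a b * (S.h l)⁻¹) * (S.h k * S.h l) := by rw [S.h_comm k l]; group
  rw [e1, e2, S.h_conj_u, S.h_conj_u, S.u_mul, S.u_mul, mul_inv_rev, ← mul_assoc,
    mul_inv_cancel_right]
  exact S.U.mul_mem (S.u_mem_U _ _) (S.U.inv_mem (S.u_mem_U _ _))

include S in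
theorem sz_odd_le {M : Subgroup G} (hodd : Odd (Nat.card M)) (hne : M ≠ ⊥) :
    ∃ (K : Subgroup G) (j : ℕ), SelfCent K ∧ j ≤ 1 ∧
      Nat.card (Subgroup.normalizer (K : Set G)) = 2 ^ (j + 1) * Nat.card K ∧ M ≤ K := by
  have := S.finite
  have ho : ∀ y ∈ M, Odd (orderOf y) := fun y hy =>
    hodd.of_dvd_nat (Subgroup.orderOf_dvd_natCard _ hy)
  rcases S.subgroup_classification M with ⟨x, h⟩ | ⟨x, h⟩ | ⟨A, hA, h⟩ | ⟨x, F₀, -, h⟩
  · have hc : ∀ y ∈ M, ∀ z ∈ M, y * z = z * y := fun y hy z hz' =>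
      mul_inv_eq_one.mp ((S.conj x).eq_one_of_mem_U_of_odd (sz_comm_B _ (h hy) (h hz'))
        (ho _ (M.mul_mem (M.mul_mem hy hz') (M.inv_mem (M.mul_mem hz' hy)))))
    obtain ⟨⟨y, hy⟩, hy1⟩ := Subgroup.ne_bot_iff_exists_ne_one.mp hne
    have hy1 : y ≠ 1 := fun e => hy1 (Subtype.ext e)
    have hle : M ≤ Subgroup.centralizer {y} := fun z hz' =>
      Subgroup.mem_centralizer_singleton_iff.mpr (hc z hz' y hy)
    rcases S.mem_conj_H_or_free (ho y hy) hy1 with ⟨x', h'⟩ | h'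
    · exact ⟨_, 0, (S.conj x').selfCent_H, by norm_num, (S.conj x').card_normalizer_H',
        (S.conj x').centralizer_eq_H h' hy1 ▸ hle⟩
    · exact ⟨_, 1, h'.isTorus.selfCent, le_rfl, h'.isTorus.card_normalizer', hle⟩
  · exact ⟨_, 0, (S.conj x).selfCent_H, by norm_num, (S.conj x).card_normalizer_H',
      fun y hy => (S.conj x).selfCent_H.mem_of_odd (S.conj x).card_normalizer_H' (h hy) (ho y hy)⟩
  · exact ⟨_, 1, hA.selfCent, le_rfl, hA.card_normalizer',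
      fun y hy => hA.selfCent.mem_of_odd hA.card_normalizer' (h hy) (ho y hy)⟩
  · have hw : (S.conj x).w ∈ M := h ▸ (S.conj x).w_mem_subGrp F₀
    have := ho _ hw
    rw [H9.orderOf_eq_two_of_mul_self (S.conj x).w_ne_one (S.conj x).w_mul_w] at this
    exact absurd this (by norm_num)

theorem sz_conj_Z {g : G} (hg : g ∈ S.B) :
    ∃ c : F, c ≠ 0 ∧ ∀ b, g * S.u 0 b * g⁻¹ = S.u 0 (c * b) := by
  obtain ⟨x, y, k, rfl⟩ := S.mem_B_iff.mp hg
  exact ⟨θ k * k, mul_ne_zero (th_ne_zero k.ne_zero) k.ne_zero,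
    fun b => by rw [S.conj_u_of_mem_B]; simp⟩

theorem sz_std {b b' d d' : F} (hb : b ≠ 0) (hd : d ≠ 0) (e : b * b' = d * d') :
    IsConj (S.u 0 b * (S.w * S.u 0 b' * S.w)) (S.u 0 d * (S.w * S.u 0 d' * S.w)) := by
  obtain ⟨x, hx⟩ := th_mul_self_surjective (m := m) (d / b)
  have hx0 : x ≠ 0 := by
    rintro rfl
    rw [mul_zero, eq_comm, div_eq_zero_iff] at hx
    tauto
  let k : Fˣ := Units.mk0 x hx0
  refine isConj_iff.mpr ⟨S.h k, ?_⟩
  have e1 : S.h k * S.u 0 b * (S.h k)⁻¹ = S.u 0 d := by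
    rw [S.h_conj_u, S.u_inj]
    refine ⟨mul_zero _, ?_⟩
    simp only [k, Units.val_mk0, hx]; field_simp
  have e2 : (S.h k)⁻¹ * S.u 0 b' * S.h k = S.u 0 d' := by
    have := S.h_conj_u k 0 d'
    rw [mul_zero] at this
    have e3 : θ (k : F) * k * d' = b' := by
      simp only [k, Units.val_mk0, hx]; field_simp; linear_combination -e
    rw [← e3, ← this]; group
  have e4 : S.w * (S.h k)⁻¹ = S.h k * S.w := (S.h_mul_w k).symm
  calc S.h k * (S.u 0 b * (S.w * S.u 0 b' * S.w)) * (S.h k)⁻¹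
      = (S.h k * S.u 0 b * (S.h k)⁻¹) * ((S.h k * S.w) * S.u 0 b' * (S.w * (S.h k)⁻¹)) := by group
    _ = S.u 0 d * ((S.w * (S.h k)⁻¹) * S.u 0 b' * (S.h k * S.w)) := by rw [e1, e4]
    _ = _ := by rw [← e2]; group

theorem sz_pair0 {g₁ g₂ : G} (h : g₁ • S.inf ≠ g₂ • S.inf) :
    ∃ (g : G) (c c' : F), c ≠ 0 ∧ c' ≠ 0 ∧ ∀ b b' : F,
      g₁ * S.u 0 b * g₁⁻¹ * (g₂ * S.u 0 b' * g₂⁻¹) =
        g * (S.u 0 (c * b) * (S.w * S.u 0 (c' * b') * S.w)) * g⁻¹ := by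
  obtain ⟨g, h1, h2⟩ := S.exists_smul_pair h
  obtain ⟨c, hc, e1⟩ := sz_conj_Z S (g := g⁻¹ * g₁) (by
    rw [S.mem_B, mul_smul, inv_smul_eq_iff, h1])
  obtain ⟨c', hc', e2⟩ := sz_conj_Z S (g := S.w * g⁻¹ * g₂) (by
    rw [S.mem_B, mul_smul, mul_smul, ← h2, inv_smul_smul, S.w_smul_zero])
  refine ⟨g, c, c', hc, hc', fun b b' => ?_⟩
  rw [← e1, ← e2]
  have hw := S.w_mul_w
  calc _ = g * (g⁻¹ * g₁ * S.u 0 b * (g⁻¹ * g₁)⁻¹ * ((S.w * S.w) * g⁻¹ * g₂ * S.u 0 b' * g₂⁻¹ * g *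
        (S.w⁻¹ * S.w))) * g⁻¹ := by rw [hw]; group
    _ = _ := by group

theorem sz_pair {h : G} {β β' : F} (hβ : β ≠ 0) (hβ' : β' ≠ 0)
    (hh : IsConj h (S.u 0 β * (S.w * S.u 0 β' * S.w))) {g₁ g₂ : G}
    (hne : g₁ • S.inf ≠ g₂ • S.inf) : ∃ c : F, c ≠ 0 ∧ ∀ b b' : F, b * b' = c →
      IsConj h (g₁ * S.u 0 b * g₁⁻¹ * (g₂ * S.u 0 b' * g₂⁻¹)) := by
  obtain ⟨g, c, c', hc, hc', e⟩ := sz_pair0 S hne
  refine ⟨β * β' / (c * c'), by simp [hβ, hβ', hc, hc'], fun b b' hb => ?_⟩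
  have hb0 : b ≠ 0 := by
    rintro rfl
    rw [zero_mul, eq_comm] at hb
    simp [hβ, hβ', hc, hc'] at hb
  rw [e]
  refine (hh.trans (sz_std S hβ (mul_ne_zero hc hb0) ?_)).trans (isConj_iff.mpr ⟨g, rfl⟩)
  rw [show c * b * (c' * b') = c * c' * (b * b') by ring, hb]; field_simp

theorem sz_ncard_le {K : Subgroup G} (hK : SelfCent K) {j : ℕ} (hj : j ≤ 1)
    (hN : Nat.card (Subgroup.normalizer (K : Set G)) = 2 ^ (j + 1) * Nat.card K) {h : G}
    (hh : h ∈ K) (h1 : h ≠ 1) [Finite G] {a : G} (ha : IsConj h a) :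
    {z | IsConj h z ∧ a * z = z * a}.ncard ≤ 4 := by
  obtain ⟨c, rfl⟩ := isConj_iff.mp ha
  have e1 := ncard_conj_mem h (K : Set G)
  rw [hK.cent h hh h1] at e1
  have e2 : {g | g⁻¹ * h * g ∈ (K : Set G)}.ncard ≤ 2 ^ (j + 1) * Nat.card K := by
    rw [← hN]
    refine (Set.ncard_le_ncard (t := (Subgroup.normalizer (K : Set G) : Set G)) (fun g hg => ?_)).trans
      (Nat.card_coe_set_eq _).ge
    have := hK.TI (g := g⁻¹) hh h1 (by simpa using hg)
    simpa using this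
  have hpos : 0 < Nat.card K := Nat.card_pos
  have e3 : {n | n ∈ (K : Set G) ∧ IsConj h n}.ncard ≤ 4 := by
    rw [e1, mul_comm] at e2
    have := Nat.le_of_mul_le_mul_right e2 hpos
    have h4 : 2 ^ (j + 1) ≤ 2 ^ 2 := Nat.pow_le_pow_right (by norm_num) (by omega)
    omega
  refine le_trans ?_ ((Set.ncard_image_le (f := fun n => c * n * c⁻¹)).trans e3)
  refine Set.ncard_le_ncard (fun z hz' => ⟨c⁻¹ * z * c, ⟨hK.mem_of_commute hh h1 ?_, ?_⟩, by group⟩)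
  · calc c⁻¹ * z * c * h = c⁻¹ * (z * (c * h * c⁻¹)) * c := by group
      _ = _ := by rw [← hz'.2]; group
  · exact hz'.1.trans (isConj_iff.mpr ⟨c⁻¹, by group⟩)

include S in
theorem sz_odd (hB : Bin G Ω) {α : Ω} (hodd : Odd (Nat.card (stabilizer G α))) :
    stabilizer G α = ⊥ := by
  classical
  have := S.finite
  by_contra hne
  obtain ⟨K, j, hK, hj, hN, hle⟩ := sz_odd_le S hodd hne
  obtain ⟨⟨h, hh⟩, h1⟩ := Subgroup.ne_bot_iff_exists_ne_one.mp hne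
  have h1 : h ≠ 1 := fun e => h1 (Subtype.ext e)
  have hhK := hle hh
  obtain ⟨s, hsN, hs2, hs1⟩ := hK.exists_involution hN
  have hinv := hK.conj_eq_inv hsN hs2 hs1 hhK
  have si : s⁻¹ = s := (eq_inv_of_mul_eq_one_left hs2).symm
  rw [si] at hinv
  have ht2 : s * h * (s * h) = 1 := by rw [← mul_assoc, hinv, inv_mul_cancel]
  have hh2 : h * h ≠ 1 := fun e => h1 (hK.eq_one_of_sq hhK e)
  have ht1 : s * h ≠ 1 := fun e => hh2 (by
    rw [eq_inv_of_mul_eq_one_right e, si, hs2])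
  obtain ⟨g₁, hg₁⟩ := S.exists_conj_Z_mem hs2
  obtain ⟨g₂, hg₂⟩ := S.exists_conj_Z_mem ht2
  obtain ⟨b₁, e₁⟩ := S.mem_Z.mp (S.mem_conj_Z.mp hg₁)
  obtain ⟨b₂, e₂⟩ := S.mem_Z.mp (S.mem_conj_Z.mp hg₂)
  have hb₁ : b₁ ≠ 0 := by
    rintro rfl
    exact Model.conj_ne_one hs1 (e₁.trans S.u_zero)
  have hb₂ : b₂ ≠ 0 := by
    rintro rfl
    exact Model.conj_ne_one ht1 (e₂.trans S.u_zero)
  have hne12 : g₁ • S.inf ≠ g₂ • S.inf := by
    intro e
    have hB' : g₁⁻¹ * g₂ ∈ S.B := by rw [S.mem_B, mul_smul, ← e, inv_smul_smul]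
    have h3 := S.conj_mem_Z hB' (S.mem_conj_Z.mp hg₂)
    have h4 := (S.mem_Z_iff.mp (S.Z.mul_mem (S.mem_conj_Z.mp hg₁) h3)).2
    apply hh2
    have : h = g₁ * (g₁⁻¹ * s * g₁ * (g₁⁻¹ * g₂ * (g₂⁻¹ * (s * h) * g₂) * (g₁⁻¹ * g₂)⁻¹)) * g₁⁻¹ := by
      calc h = s * s * h := by rw [hs2, one_mul]
        _ = _ := by group
    generalize g₁⁻¹ * s * g₁ * (g₁⁻¹ * g₂ * (g₂⁻¹ * (s * h) * g₂) * (g₁⁻¹ * g₂)⁻¹) = y at h4 this
    rw [this]
    calc g₁ * y * g₁⁻¹ * (g₁ * y * g₁⁻¹) = g₁ * (y * y) * g₁⁻¹ := by group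
      _ = 1 := by rw [h4]; group
  obtain ⟨g, c, c', hc, hc', e⟩ := sz_pair0 S hne12
  have hstd : IsConj h (S.u 0 (c * b₁) * (S.w * S.u 0 (c' * b₂) * S.w)) := by
    refine (isConj_iff.mpr ⟨g, ?_⟩ : IsConj _ h).symm
    rw [← e, ← e₁, ← e₂]
    calc _ = s * s * h := by group
      _ = h := by rw [hs2, one_mul]
  have pair := fun {g₁ g₂ : G} (hne : g₁ • S.inf ≠ g₂ • S.inf) =>
    sz_pair S (mul_ne_zero hc hb₁) (mul_ne_zero hc' hb₂) hstd hne
  obtain ⟨c12, hc12, e12⟩ := pair (g₁ := 1) (g₂ := S.w) (by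
    rw [one_smul, S.w_smul_inf]; exact S.inf_ne_pt 0 0)
  simp only [one_mul, inv_one, mul_one] at e12
  have sq : ∀ (x : G) (b : F), x * S.u 0 b * x⁻¹ * (x * S.u 0 b * x⁻¹) = 1 := fun x b => by
    calc _ = x * (S.u 0 b * S.u 0 b) * x⁻¹ := by group
      _ = 1 := by rw [S.u_zero_sq]; group
  have key : ∀ xy : F × F, xy ≠ 0 → ∃ b : F, b ≠ 0 ∧ ∃ t : G, t * t = 1 ∧ t ≠ 1 ∧
      t • S.pt xy.1 xy.2 = S.pt xy.1 xy.2 ∧
      IsConj h (S.w * S.u 0 (c12 / b) * S.w⁻¹ * t) ∧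
      S.u 0 b * (S.w * S.u 0 (c12 / b) * S.w⁻¹) * (S.w * S.u 0 (c12 / b) * S.w⁻¹ * t) =
        (S.w * S.u 0 (c12 / b) * S.w⁻¹ * t) * (S.u 0 b * (S.w * S.u 0 (c12 / b) * S.w⁻¹)) := by
    rintro ⟨x, y⟩ hxy
    have hp : (S.u x y * S.w) • S.inf = S.pt x y := by
      rw [mul_smul, S.w_smul_inf, S.u_smul_zero]
    obtain ⟨c23, hc23, e23⟩ := pair (g₁ := S.w) (g₂ := S.u x y * S.w) (by
      rw [hp, S.w_smul_inf, Ne, S.pt_inj]
      rintro ⟨rfl, rfl⟩
      exact hxy rfl)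
    obtain ⟨c31, hc31, e31⟩ := pair (g₁ := S.u x y * S.w) (g₂ := 1) (by
      rw [hp, one_smul]; exact S.pt_ne_inf x y)
    simp only [one_mul, inv_one, mul_one] at e31
    obtain ⟨r, hr⟩ := (th_bijective (F := F)).2 (c12 * c31 / c23)
    obtain ⟨b, rfl⟩ := (th_bijective (F := F)).2 r
    rw [th_th] at hr
    have hb : b ≠ 0 := by
      rintro rfl
      rw [eq_comm] at hr
      simp [hc12, hc31, hc23] at hr
    have f12 := e12 b (c12 / b) (by field_simp)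
    have f23 := e23 (c12 / b) (c31 / b) (by field_simp at hr ⊢; linear_combination -hr)
    have f31 := e31 (c31 / b) b (by field_simp)
    refine ⟨b, hb, S.u x y * S.w * S.u 0 (c31 / b) * (S.u x y * S.w)⁻¹, sq _ _, fun e => ?_, ?_,
      f23, ?_⟩
    · have : S.u 0 (c31 / b) = 1 := conj_eq_one_iff.mp e
      exact div_ne_zero hc31 hb (S.u_eq_one.mp this).2
    · rw [← hp, mul_smul, inv_smul_smul, mul_smul, S.u_smul_inf]
    · obtain ⟨d₁, hd₁⟩ := isConj_iff.mp f12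
      obtain ⟨d₂, hd₂⟩ := isConj_iff.mp f23
      obtain ⟨d₃, hd₃⟩ := isConj_iff.mp f31
      have hα : h • α = α := hh
      refine hB.comm_of_selfCent hle (fun _ hx _ hy => hK.comm hx hy)
        (fun _ hx hx1 _ e => hK.mem_of_commute hx hx1 e) (c₁ := d₁) (c₂ := d₂) (c₃ := d₃)
        (c := S.u x y * S.w * S.u 0 (c31 / b) * (S.u x y * S.w)⁻¹ * S.u 0 b)
        (by rw [← hd₁]; simpa [mul_assoc] using hα) (by rw [← hd₂]; simpa [mul_assoc] using hα)
        (by rw [← hd₃]; simpa [mul_assoc] using hα) ?_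
      have a1 := sq S.w (c12 / b)
      have a2 := sq (S.u x y * S.w) (c31 / b)
      have a3 := S.u_zero_sq b
      generalize S.w * S.u 0 (c12 / b) * S.w⁻¹ = s₂ at a1 ⊢
      generalize S.u x y * S.w * S.u 0 (c31 / b) * (S.u x y * S.w)⁻¹ = s₃ at a2 ⊢
      calc _ = S.u 0 b * (s₂ * s₂) * (s₃ * s₃) * S.u 0 b := by group
        _ = 1 := by rw [a1, a2, mul_one, mul_one, a3]
  choose! f hf0 t ht2' ht1' htp hconj hcomm using key
  have hcount := Finset.card_le_mul_card_image_of_maps_to (f := f)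
    (s := Finset.univ.erase (0 : F × F)) (t := Finset.univ.erase (0 : F))
    (fun a ha => by simpa using hf0 a (by simpa using ha)) 4 (fun b hb => by
      have hb0 : b ≠ 0 := by simpa using hb
      refine le_trans ?_ (sz_ncard_le hK hj hN hhK h1 (e12 b (c12 / b) (by field_simp)))
      rw [← Set.ncard_coe_finset]
      refine Set.ncard_le_ncard_of_injOn (fun a => S.w * S.u 0 (c12 / b) * S.w⁻¹ * t a) ?_ ?_
      · intro a ha
        simp only [Finset.coe_filter, Finset.mem_erase, Finset.mem_univ, and_true,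
          Set.mem_ofPred_eq] at ha
        obtain ⟨ha, rfl⟩ := ha
        exact ⟨hconj a ha, hcomm a ha⟩
      · intro a ha a' ha' e'
        simp only [Finset.coe_filter, Finset.mem_erase, Finset.mem_univ, and_true,
          Set.mem_ofPred_eq] at ha ha'
        have e'' : t a = t a' := mul_left_cancel e'
        have := S.fix_unique_of_sq (ht2' a ha.1) (ht1' a ha.1) (htp a ha.1)
          (e'' ▸ htp a' ha'.1)
        rw [S.pt_inj] at this
        exact Prod.ext this.1 this.2)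
  rw [Finset.card_erase_of_mem (Finset.mem_univ _), Finset.card_erase_of_mem (Finset.mem_univ _),
    Finset.card_univ, Finset.card_univ, Fintype.card_prod] at hcount
  have h8 : 8 ≤ q := eight_le_card
  have : q * 8 ≤ q * q := Nat.mul_le_mul_left _ h8
  omega

include S in
theorem sz_bin_center (P : Sylow 2 G) :
    Bin G (G ⧸ (Subgroup.center (P : Subgroup G)).map (P : Subgroup G).subtype) := by
  obtain ⟨g, hg⟩ := S.exists_conj_U_eq P
  rw [← hg, (S.conj g).map_center_U]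
  exact sz_bin_Z _

include S in
theorem sz_of_bin {H : Subgroup G} (hH : H ≠ ⊤) (hev : Even (Nat.card H)) (hB : Bin G (G ⧸ H)) :
    ∃ P : Sylow 2 G, H = (Subgroup.center (P : Subgroup G)).map (P : Subgroup G).subtype := by
  have := S.finite
  obtain ⟨s, hs, ho⟩ := (H9.even_card_iff_exists_involution H).mp hev
  obtain ⟨g, hg⟩ := sz_even S hB (α := ((1 : G) : G ⧸ H)) (by rwa [stab_one]) ho
    (by rw [← mem_stabilizer_iff, stab_one]; exact hs)
  rw [stab_one] at hg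
  exact ⟨(S.conj g).sylow, by rw [coe_sylow, map_center_U, hg]⟩

end H41.BA
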