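import Mathlib
import Cfsg.Agent.Lib.Binary.U3A

/-!
# Binary actions of `SU₃(q)`, `q` even: unipotent stabilisers
-/

set_option autoImplicit false

namespace H41.BA

open MulAction Matrix Cfsg H11.U H8.U3

variable {F : Type*} [Field F] [Fintype F] {q : ℕ} [IsSq F q]

set_option hygiene false in
local notation "V" => (Fin 3 → F)
set_option hygiene false in
local notation "G" => SU 3 F q
set_option hygiene false in
local notation "⟪" u "," v "⟫" => hermForm 3 F q u v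

variable {Ω : Type*} [MulAction G Ω]

theorem u3_cent (h2 : (2 : F) = 0) (hB : Bin G Ω) {α : Ω} {e : V} (he : Iso q e)
    (hX : stabilizer G α ≤ St q e) {g : G} (hg : g • α = α) :
    ∃ z ∈ Subgroup.center G, z⁻¹ * g ∈ Fx q e := by
  obtain ⟨l, hl⟩ := mem_St.mp (hX hg)
  have h1 := u3_norm h2 hB he hX hg hl
  have h3 := u3_cube h2 hB he hX hg hl
  refine ⟨scal l h1 h3, scal_mem h1 h3, ?_⟩
  rw [mem_Fx, ac_mul, hl, ← ac_scal h1 h3, ac_inv_ac]

theorem exists_phi (h2 : (2 : F) = 0) (hq : 3 ≤ q) {r : F} (hr : cj q r = r) (hr0 : r ≠ 0) :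
    ∃ l : F, l ≠ 0 ∧ cj q l ^ 2 / l + cj q (cj q l ^ 2 / l) = r := by
  obtain ⟨l, hN, h3⟩ := exists_norm_one_cube F hq
  have hl : l ≠ 0 := left_ne_zero_of_mul (hN ▸ one_ne_zero)
  have hc : cj q l = l⁻¹ := eq_inv_of_mul_eq_one_right hN
  set T : F := cj q l ^ 2 / l + cj q (cj q l ^ 2 / l) with hT
  have hT0 : T ≠ 0 := by
    intro e
    rw [hT, map_div₀, map_pow, cj_cj, hc] at e
    field_simp at e
    have : (l ^ 3 - 1) ^ 2 = 0 := by linear_combination e - l ^ 3 * h2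
    exact h3 (sub_eq_zero.mp (pow_eq_zero_iff two_ne_zero |>.mp this))
  have hTc : cj q T = T := cj_trace _
  have hρ : cj q (r / T) = r / T := by rw [map_div₀, hr, hTc]
  have hρ0 : r / T ≠ 0 := div_ne_zero hr0 hT0
  refine ⟨l * (r / T), mul_ne_zero hl hρ0, ?_⟩
  have e1 : cj q (l * (r / T)) ^ 2 / (l * (r / T)) = cj q l ^ 2 / l * (r / T) := by
    rw [map_mul, hρ]; field_simp
  rw [e1, map_mul, hρ, ← add_mul, ← hT]; field_simp

theorem u3_xx (h2 : (2 : F) = 0) (hq : 3 ≤ q) (hB : Bin G Ω)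
    (hZ : ∀ z ∈ Subgroup.center G, ∀ x : Ω, z • x = x) {α : Ω} {e w f : V} (h : Fr q e w f)
    (hX : stabilizer G α ≤ St q e) (hT : ∀ c, cj q c = c → tv q e c • α = α) {u : G}
    (hu : u ∈ Fx q e) (huα : u • α = α) : xx q w f u = 0 := by
  by_contra hx0
  set x₀ := xx q w f u with hx₀
  have into : ∀ y ∈ Fx q e, ∀ l : F, l ≠ 0 → cj q l ^ 2 / l * xx q w f y = x₀ →
      ∃ d ∈ St q e, y • d • α = d • α := by
    intro y hy l hl e1
    obtain ⟨t, t1, -, -⟩ := h.exists_torus hl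
    refine ⟨t⁻¹, (St q e).inv_mem ⟨l, t1⟩, smul_smul_eq_iff.mpr ?_⟩
    rw [inv_inv]
    have m1 := h.conj_mem_Fx' t1 hy
    have m2 : u⁻¹ * (t * y * t⁻¹) ∈ Fx q e := (Fx q e).mul_mem ((Fx q e).inv_mem hu) m1
    have m3 : xx q w f (u⁻¹ * (t * y * t⁻¹)) = 0 := by
      rw [h.xx_mul ((Fx q e).inv_mem hu) m1, h.xx_inv hu, h.xx_conj t1 hy, e1, neg_add_cancel]
    have m4 := hT _ ((h.cj_cc m2 m3).trans (neg_self2 h2 _))
    rw [← h.eq_tv m2 m3, mul_smul, inv_smul_eq_iff, huα] at m4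
    exact m4
  obtain ⟨ξ, hξ⟩ := exists_trace_eq (q := q) (c := (1 : F)) (map_one _)
  have hξ0 : ξ ≠ 0 := by rintro rfl; simp at hξ
  have hx' : cj q x₀ ≠ 0 := cj_ne_zero.2 hx0
  have hξ' : cj q ξ ≠ 0 := cj_ne_zero.2 hξ0
  obtain ⟨l, hl, hc⟩ := exists_phi h2 hq (r := x₀ * ξ * cj q (x₀ * ξ)) (cj_norm _)
    (mul_ne_zero (mul_ne_zero hx0 hξ0) (cj_ne_zero.2 (mul_ne_zero hx0 hξ0)))
  have hl' : cj q l ≠ 0 := cj_ne_zero.2 hl
  set c : F := cj q l ^ 2 / l with hcdef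
  have hc0 : c ≠ 0 := div_ne_zero (pow_ne_zero _ hl') hl
  have hc' : cj q c ≠ 0 := cj_ne_zero.2 hc0
  rw [map_mul] at hc
  obtain ⟨b, hb, bx, bc⟩ := h.exists_Q (x := x₀) (c := x₀ * ξ * cj q x₀) (by
    simp only [map_mul, cj_cj]
    linear_combination x₀ * cj q x₀ * hξ + x₀ * cj q x₀ * h2)
  obtain ⟨a, ha, ax, ac'⟩ := h.symm.exists_Q (x := x₀ / c) (c := x₀ * ξ * cj q x₀ / (c * cj q c)) (by
    simp only [map_mul, map_div₀, cj_cj]
    field_simp
    linear_combination x₀ * cj q x₀ * hξ + x₀ * cj q x₀ * h2)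
  obtain ⟨m, hm, mx, mc⟩ := h.symm.exists_Q (x := x₀ * ξ / c) (c := c⁻¹) (by
    simp only [map_mul, map_div₀, map_inv₀]
    field_simp
    linear_combination hc + x₀ * ξ * cj q x₀ * cj q ξ * h2)
  have bw := h.Q_w hb
  have bf := h.Q_f hb
  have aw := h.symm.Q_w ha
  have ae := h.symm.Q_f ha
  have mw := h.symm.Q_w hm
  have me := h.symm.Q_f hm
  rw [bx] at bw
  rw [bx, bc] at bf
  rw [ax] at aw
  rw [ax, ac'] at ae
  rw [mx] at mw
  rw [mx, mc] at me
  have be : ac b e = e := hb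
  have af : ac a f = f := ha
  have mf : ac m f = f := hm
  have hab : ac a (ac m e) = ac b (ac m e) := by
    rw [me]
    simp only [ac_add, ac_smul, bw, bf, aw, ae, be, af, map_div₀]
    match_scalars <;> field_simp <;> ring
  have hg : m⁻¹ * (a⁻¹ * b) * m ∈ Fx q e := by
    rw [mem_Fx, ac_mul, ac_mul, ac_mul, ← hab, ac_inv_ac, ac_inv_ac]
  obtain ⟨s, s1, s2, s3⟩ := exists_swap h2 h
  have hsa : s⁻¹ * a * s ∈ Fx q e := by rw [conj_mem_Fx, s1]; exact ha
  obtain ⟨d₁, hd₁, e₁⟩ := into _ hsa l hl (by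
    rw [xx, ac_mul, ac_mul, s3, form_ac_left, inv_inv, s2]
    change c * xx q w e a = _
    rw [ax]; field_simp)
  obtain ⟨d₂, hd₂, e₂⟩ := into _ hb 1 one_ne_zero (by rw [bx]; simp)
  obtain ⟨d₃, hd₃, e₃⟩ := into _ hg (l / cj q l) (div_ne_zero hl hl') (by
    rw [xx, ac_mul, ac_mul, ac_mul, mf, form_ac_left, inv_inv, form_ac_left, inv_inv, mw, bf, ac_add,
      ac_smul, aw, af]
    simp only [form_add_left, form_add_right, form_smul_left, form_smul_right, h.ef, h.ew, h.wf, h.ww,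
      h.ff, h.fw, map_neg, cj_cj, map_div₀, map_mul]
    have e1 : (cj q l / l) ^ 2 / (l / cj q l) = c / cj q c := by
      rw [hcdef, map_div₀, map_pow, cj_cj]; field_simp
    rw [e1]
    field_simp
    linear_combination x₀ * hc + x₀ ^ 2 * ξ * cj q x₀ * hξ - x₀ * cj q c * h2 -
      x₀ ^ 2 * ξ ^ 2 * cj q x₀ * h2)
  have f₁ : a • (s * d₁) • α = (s * d₁) • α := by
    rw [mul_smul, smul_smul_eq_iff]; exact e₁
  have f₃ : a • (m * d₃) • α = b • (m * d₃) • α := by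
    rw [mul_smul, eq_comm, ← inv_smul_eq_iff, ← mul_smul a⁻¹, smul_smul_eq_iff]; exact e₃
  obtain ⟨k, k1, k2, k3⟩ := hB.tri f₁ e₂ f₃
  have St_of : ∀ {d : G}, d ∈ St q e → ∀ x : G, St q (ac (x * d) e) = St q (ac x e) := by
    rintro d ⟨ρ, hρ⟩ x
    rw [ac_mul, hρ, ac_smul, St_smul (ne_zero_of_ac h.e_ne hρ)]
  have kf : k ∈ St q f := by
    have := conj_mem_St.mp (hX (smul_smul_eq_iff.mp k1))
    rwa [St_of hd₁, s1] at this
  obtain ⟨z, hz, hz'⟩ := u3_cent h2 hB h.iso_e hX (smul_smul_eq_iff.mp k2)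
  have hzk : z⁻¹ * k ∈ Fx q e := by
    have e1 : z⁻¹ * (d₂⁻¹ * k * d₂) = d₂⁻¹ * (z⁻¹ * k) * d₂ := by
      have := Subgroup.mem_center_iff.mp ((Subgroup.center G).inv_mem hz) d₂⁻¹
      calc _ = (z⁻¹ * d₂⁻¹) * k * d₂ := by group
        _ = _ := by rw [← this]; group
    obtain ⟨ρ, hρ⟩ := hd₂
    rw [e1, conj_mem_Fx, hρ, Fx_smul (ne_zero_of_ac h.e_ne hρ)] at hz'
    exact hz'
  have hk : z = k := inv_mul_eq_one.mp (eq_one_of_Fx_St h hzk
    ((St q f).mul_mem ((St q f).inv_mem (center_le_St f hz)) kf))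
  rw [← hk, hZ z hz] at k3
  have av := conj_mem_St.mp (hX (smul_smul_eq_iff.mp k3.symm))
  rw [St_of hd₃] at av
  have ha1 : a ≠ 1 := fun e' => div_ne_zero hx0 hc0 (by rw [← ax, e', h.symm.xx_one])
  obtain ⟨ρ, hρ⟩ := eq_smul_of_fix h.iso_f (h.iso_e.ac m) ha ha1 av
  have := congrArg (fun v => ⟪v, f⟫) hρ
  simp only [me, form_add_left, form_smul_left, h.ff, h.wf, h.ef] at this
  simp at this

/-! ### two points -/

/-- all transvections with centre `v` lie in `X` -/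
def YY (X : Subgroup G) (v : V) : Prop := ∀ c, cj q c = c → tv q v c ∈ X

theorem YY.act {X : Subgroup G} {v : V} (h : YY X v) {g : G} (hg : g ∈ X) : YY X (ac g v) :=
  fun c hc => by
    rw [← conj_tv']
    exact X.mul_mem (X.mul_mem hg (h c hc)) (X.inv_mem hg)

theorem YY.smul (h2 : (2 : F) = 0) {X : Subgroup G} {v : V} (h : YY X v) (hv : ⟪v, v⟫ = 0) (a : F) :
    YY X (a • v) := fun c hc => by
  rw [tv_smul hv (hc.trans (neg_self2 h2 c).symm)]
  exact h _ (by rw [map_mul, cj_norm, hc])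

theorem exists_sw (h2 : (2 : F) = 0) {X : Subgroup G} {e w f : V} (h : Fr q e w f) (he : YY X e)
    (hf : YY X f) {a : F} (ha : cj q a = a) (ha0 : a ≠ 0) :
    ∃ s ∈ X, ac s e = a⁻¹ • f ∧ ac s w = w ∧ ac s f = a • e := by
  have ha' : cj q a⁻¹ = a⁻¹ := by rw [map_inv₀, ha]
  have t1 := ac_tv h.ee (ha.trans (neg_self2 h2 a).symm)
  have t2 := ac_tv h.ff (ha'.trans (neg_self2 h2 _).symm)
  refine ⟨tv q e a * tv q f a⁻¹ * tv q e a,
    X.mul_mem (X.mul_mem (he a ha) (hf _ ha')) (he a ha), ?_, ?_, ?_⟩ <;>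
  simp only [ac_mul, t1, t2, form_add_left, form_smul_left, h.ee, h.ff, h.ef, h.fe, h.we, h.wf]
  · match_scalars
    · field_simp; linear_combination h2
    · ring
  · simp
  · match_scalars
    · field_simp; linear_combination a * h2
    · field_simp; linear_combination a * h2

theorem exists_hl (h2 : (2 : F) = 0) {X : Subgroup G} {e w f : V} (h : Fr q e w f) (he : YY X e)
    (hf : YY X f) {l : F} (hl : cj q l = l) (hl0 : l ≠ 0) :
    ∃ t ∈ X, ac t e = l • e ∧ ac t w = w ∧ ac t f = l⁻¹ • f := by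
  obtain ⟨s, hs, s1, s2, s3⟩ := exists_sw h2 h he hf hl hl0
  obtain ⟨s', hs', s1', s2', s3'⟩ := exists_sw h2 h he hf (map_one _) one_ne_zero
  refine ⟨s * s', X.mul_mem hs hs', ?_, ?_, ?_⟩ <;> rw [ac_mul]
  · rw [s1', inv_one, one_smul, s3]
  · rw [s2', s2]
  · rw [s3', one_smul, s1]

theorem smul_mem_SS (h2 : (2 : F) = 0) (hq : 3 ≤ q) {X : Subgroup G} {e w f : V} (h : Fr q e w f)
    (he : YY X e) (hf : YY X f) {c x : F} (hc : c + cj q c + x * cj q x = 0)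
    (hv : YY X (c • e + x • w + f)) {ρ : F} (hρ : cj q ρ = ρ) : ρ * x ∈ h.SS X := by
  obtain ⟨u, hu, ux, uc⟩ := h.exists_Q hc
  have uw := h.Q_w hu
  have uf := h.Q_f hu
  rw [ux] at uw
  rw [ux, uc] at uf
  have ue : ac u e = e := hu
  obtain ⟨l, hl, hl0, hl1⟩ := exists_fixed_ne (F := F) (q := q) (by omega) 1
  obtain ⟨t, ht, t1, t2, t3⟩ := exists_hl h2 h he hf hl hl0
  obtain ⟨t', ht', t1', t2', t3'⟩ := exists_hl h2 (h.ac u) (by rwa [ue]) (by rwa [uf]) hl hl0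
  rw [ue] at t1'
  rw [uw, ac_add, ac_smul, t1'] at t2'
  rw [uf, ac_add, ac_add, ac_smul, ac_smul, t1'] at t3'
  have m : (1 - l) * x ∈ h.SS X := by
    refine h.mem_SS.mpr ⟨t' * t⁻¹, X.mul_mem ht' (X.inv_mem ht), ?_, ?_⟩
    · rw [mem_Fx, ac_mul, ac_inv_of hl0 t1, ac_smul, t1', smul_smul, inv_mul_cancel₀ hl0, one_smul]
    · refine h.xx_eq (c := c - l * (c * l) + l * x * (cj q x - cj q x * l)) ?_
      rw [ac_mul, ac_inv_of (inv_ne_zero hl0) t3, inv_inv, ac_smul]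
      have : l • l⁻¹ • (c • e + x • w + f) = c • e + x • w + f := by
        rw [smul_smul, mul_inv_cancel₀ hl0, one_smul]
      linear_combination (norm := module) l • t3' - (l * x) • t2' + this
  by_cases hρ0 : ρ = 0
  · rw [hρ0, zero_mul]; exact zero_mem _
  have h1l : 1 - l ≠ 0 := sub_ne_zero.mpr hl1.symm
  have hk : cj q (ρ / (1 - l)) = ρ / (1 - l) := by rw [map_div₀, map_sub, map_one, hρ, hl]
  obtain ⟨t'', ht'', t1'', -, -⟩ := exists_hl h2 h he hf hk (div_ne_zero hρ0 h1l)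
  have := h.SS_conj ht'' t1'' m
  rw [hk] at this
  convert this using 1
  field_simp

theorem perp_of_YY (h2 : (2 : F) = 0) (hq : 3 ≤ q) {X : Subgroup G} (hX : X ≠ ⊤) {e w f : V}
    (h : Fr q e w f) (he : YY X e) (hf : YY X f) {v : V} (hv0 : ⟪v, v⟫ = 0) (hv : YY X v) :
    ⟪v, w⟫ = 0 := by
  by_contra hvw
  apply hX
  obtain ⟨a, x, c, rfl⟩ := h.exists_comb v
  rw [h.form_w] at hvw
  have hv1 := hv0
  rw [h.form_form] at hv1
  have hx' : cj q x ≠ 0 := cj_ne_zero.2 hvw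
  have hc : c ≠ 0 := by
    rintro rfl
    simp [hvw] at hv1
  have ha : a ≠ 0 := by
    rintro rfl
    simp [hvw] at hv1
  have hc' : cj q c ≠ 0 := cj_ne_zero.2 hc
  have ha' : cj q a ≠ 0 := cj_ne_zero.2 ha
  have m1 : ∀ ρ, cj q ρ = ρ → ρ * (x / c) ∈ h.SS X := fun ρ hρ =>
    smul_mem_SS h2 hq h he hf (c := a / c) (by
      simp only [map_div₀]; field_simp; linear_combination hv1) (by
      convert hv.smul h2 hv0 c⁻¹ using 1
      match_scalars <;> field_simp) hρ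
  obtain ⟨s, hs, s1, s2, s3⟩ := exists_sw h2 h he hf (map_one _) one_ne_zero
  have m2 : ∀ ρ, cj q ρ = ρ → ρ * (x / a) ∈ h.SS X := fun ρ hρ =>
    smul_mem_SS h2 hq h he hf (c := c / a) (by
      simp only [map_div₀]; field_simp; linear_combination hv1) (by
      convert (hv.act hs).smul h2 (by rw [form_ac, hv0]) a⁻¹ using 1
      simp only [ac_add, ac_smul, s1, s2, s3]
      match_scalars <;> field_simp) hρ
  have hS : ∀ z, z ∈ h.SS X := fun z => by
    obtain ⟨s, t, hs, ht, rfl⟩ := exists_fixed_comb (q := q) (a := x / c) (b := x / a) (by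
      simp only [map_div₀]
      intro e'
      field_simp at e'
      apply mul_ne_zero hvw hx'
      linear_combination hv1 - e' - c * cj q a * h2) z
    exact add_mem (m1 s hs) (m2 t ht)
  have hF : Fx q e ≤ X := fun u hu => by
    obtain ⟨u', hu'X, hu', e'⟩ := h.mem_SS.mp (hS (xx q w f u))
    have m2 : u'⁻¹ * u ∈ Fx q e := (Fx q e).mul_mem ((Fx q e).inv_mem hu') hu
    have m3 : xx q w f (u'⁻¹ * u) = 0 := by
      rw [h.xx_mul ((Fx q e).inv_mem hu') hu, h.xx_inv hu', e', neg_add_cancel]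
    have m4 := he _ ((h.cj_cc m2 m3).trans (neg_self2 h2 _))
    rw [← h.eq_tv m2 m3] at m4
    simpa using X.mul_mem hu'X m4
  refine eq_top_of_tv_mem (Or.inr (by omega)) (fun v _ hv' c' hc'' => ?_)
  refine (?_ : YY X v) c' (hc''.trans (neg_self2 h2 _))
  by_cases hve : ⟪v, e⟫ = 0
  · obtain ⟨b, rfl⟩ := h.eq_smul_of_perp hv' hve
    exact he.smul h2 h.ee b
  · obtain ⟨a₁, x₁, c₁, rfl⟩ := h.exists_comb v
    rw [h.form_e] at hve
    rw [h.form_form] at hv'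
    have hc₁ : cj q c₁ ≠ 0 := cj_ne_zero.2 hve
    obtain ⟨u, hu, ux, uc⟩ := h.exists_Q (x := x₁ / c₁) (c := a₁ / c₁) (by
      simp only [map_div₀]; field_simp; linear_combination hv')
    have uf := h.Q_f hu
    rw [ux, uc] at uf
    convert (hf.act (hF hu)).smul h2 (by rw [form_ac, h.ff]) c₁ using 1
    rw [uf]
    match_scalars <;> field_simp

theorem le_St_of_YY (h2 : (2 : F) = 0) (hq : 3 ≤ q) {X : Subgroup G} (hX : X ≠ ⊤) {e w f : V}
    (h : Fr q e w f) (he : YY X e) (hf : YY X f) : X ≤ St q w := by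
  intro g hg
  have h1 := perp_of_YY h2 hq hX h he hf (by rw [form_ac, h.ee]) (he.act hg)
  have h3 := perp_of_YY h2 hq hX h he hf (by rw [form_ac, h.ff]) (hf.act hg)
  have e1 := (h.ac g).expand w
  rw [form_eq_zero_symm h1, form_eq_zero_symm h3, zero_smul, zero_smul, zero_add, add_zero] at e1
  have h0 : ⟪w, ac g w⟫ ≠ 0 := fun e' => h.w_ne (by rw [e1, e', zero_smul])
  refine ⟨⟪w, ac g w⟫⁻¹, ?_⟩
  conv_rhs => enter [2]; rw [e1]
  rw [smul_smul, inv_mul_cancel₀ h0, one_smul]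

theorem Fx_le_of_YY (h2 : (2 : F) = 0) {X : Subgroup G} {e w f : V}
    (h : Fr q e w f) (he : YY X e) (hf : YY X f) : Fx q w ≤ X := by
  have key : ∀ g ∈ Fx q w, ∀ l : F, ac g e = l • e → g ∈ X := by
    intro g hg l hl
    obtain ⟨hl0, a, -, -, hw, -⟩ := h.shape hl
    have := h.comb_inj (a := 0) (b := 1) (c := 0) (a' := a) (b' := cj q l / l) (c' := 0) (by
      rw [zero_smul, zero_smul, add_zero, add_zero, ← hw, zero_add, one_smul]
      exact (mem_Fx.mp hg).symm)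
    have hc : cj q l = l := by
      have := this.2.1
      field_simp at this
      exact this.symm
    obtain ⟨t, ht, t1, t2, -⟩ := exists_hl h2 h he hf hc hl0
    have m1 : t⁻¹ * g ∈ Fx q e := by rw [mem_Fx, ac_mul, hl, ← t1, ac_inv_ac]
    have m2 : t⁻¹ * g ∈ St q w := Fx_le_St w
      ((Fx q w).mul_mem ((Fx q w).inv_mem (mem_Fx.mpr t2)) hg)
    have m3 := h.xx_eq_zero m1 m2
    have m4 := he _ ((h.cj_cc m1 m3).trans (neg_self2 h2 _))
    rw [← h.eq_tv m1 m3] at m4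
    simpa using X.mul_mem ht m4
  intro g hg
  obtain ⟨a, b, c, hge⟩ := h.exists_comb (ac g e)
  have e1 := form_ac g e w
  rw [mem_Fx.mp hg, hge, h.form_w, h.ew] at e1
  have e2 := form_ac g e e
  rw [hge, h.form_form, h.ee, e1] at e2
  by_cases hc : c = 0
  · exact key g hg a (by rw [hge, e1, hc]; simp)
  have hc' : cj q c ≠ 0 := cj_ne_zero.2 hc
  have ht : cj q (a / c) = a / c := by
    rw [map_div₀]; field_simp; linear_combination e2 - a * cj q c * h2
  obtain ⟨s, hs, s1, s2, s3⟩ := exists_sw h2 h he hf (map_one _) one_ne_zero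
  have m : s * tv q e (a / c) * g ∈ X := by
    refine key _ ((Fx q w).mul_mem ((Fx q w).mul_mem (mem_Fx.mpr s2) (tv_mem_Fx _ h.we)) hg) c ?_
    rw [ac_mul, ac_mul, hge, ac_tv h.ee (ht.trans (neg_self2 h2 _).symm), h.form_e, e1]
    simp only [ac_add, ac_smul, s1, s2, s3]
    match_scalars
    · field_simp; linear_combination a * h2
    · ring
    · ring
  have := X.mul_mem (X.inv_mem (X.mul_mem hs (he _ ht))) m
  simpa [mul_assoc] using this

end H41.BA
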