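import Mathlib
import Cfsg.Agent.Lib.Binary.U3B

/-!
# Binary actions of `SU₃(q)` and `PSU₃(q)`, `q` even: conclusion
-/

set_option autoImplicit false

namespace H41.BA

open MulAction Matrix Cfsg H11.U H8.U3

variable {F : Type*} [Field F] [Fintype F] {q : ℕ} [IsSq F q]

set_option hygiene false in
local notation "V" => (Fin 3 → F)
set_option hygiene false in
local notation "G" => SU 3 F q
set_option hygiene false in
local notation "⟪" u "," v "⟫" => hermForm 3 F q u v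

variable {Ω : Type*} [MulAction G Ω]

theorem exists_diag {z₁ z₂ z₃ : V} (n1 : ⟪z₁, z₁⟫ ≠ 0) (n2 : ⟪z₂, z₂⟫ ≠ 0) (n3 : ⟪z₃, z₃⟫ ≠ 0)
    (p12 : ⟪z₁, z₂⟫ = 0) (p13 : ⟪z₁, z₃⟫ = 0) (p23 : ⟪z₂, z₃⟫ = 0) {a b c : F}
    (ha : a * cj q a = 1) (hb : b * cj q b = 1) (habc : a * b * c = 1) :
    ∃ g : G, ac g z₁ = a • z₁ ∧ ac g z₂ = b • z₂ ∧ ac g z₃ = c • z₃ := by
  have hc : c * cj q c = 1 := by
    have := congrArg (cj q) habc
    rw [map_mul, map_mul, map_one] at this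
    calc c * cj q c = (a * cj q a) * (b * cj q b) * (c * cj q c) := by rw [ha, hb]; ring
      _ = (a * b * c) * (cj q a * cj q b * cj q c) := by ring
      _ = 1 := by rw [habc, this, one_mul]
  obtain ⟨g₁, d1, e1, f1⟩ := exists_gu_det_eq n1 ha
  obtain ⟨g₂, d2, e2, f2⟩ := exists_gu_det_eq n2 hb
  obtain ⟨g₃, d3, e3, f3⟩ := exists_gu_det_eq n3 hc
  have hI : IsIso q (g₁ * g₂ * g₃).1.1 := mem_GU.mp (g₁ * g₂ * g₃).2
  have hd : (g₁ * g₂ * g₃).1.1.det = 1 := by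
    change (g₁.1.1 * g₂.1.1 * g₃.1.1).det = 1
    rw [det_mul, det_mul, d1, d2, d3, habc]
  have k : ∀ v, ac (toSU _ hI hd) v = g₁.1.1 *ᵥ (g₂.1.1 *ᵥ (g₃.1.1 *ᵥ v)) := fun v => by
    rw [ac, toSU_val, gu_mul, gu_mul]
  refine ⟨toSU _ hI hd, ?_, ?_, ?_⟩ <;> rw [k]
  · rw [f3 _ p13, f2 _ p12, e1]
  · rw [f3 _ p23, e2, mulVec_smul, f1 _ (form_eq_zero_symm p12)]
  · rw [e3, mulVec_smul, mulVec_smul, f2 _ (form_eq_zero_symm p23), f1 _ (form_eq_zero_symm p13)]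

theorem ON.det {z₁ z₂ z₃ : V} (h : ON q z₁ z₂ z₃) {g : G} {a b c : F} (h1 : ac g z₁ = a • z₁)
    (h2 : ac g z₂ = b • z₂) (h3 : ac g z₃ = c • z₃) : a * b * c = 1 := by
  have k : ∀ u v : V, ∑ j, cj q (v j) * u j = ⟪u, v⟫ := fun u v => by
    rw [form_def]; exact Finset.sum_congr rfl fun j _ => mul_comm _ _
  have h0 : (Matrix.of ![fun j => cj q (z₁ j), fun j => cj q (z₂ j), fun j => cj q (z₃ j)]) *
      (Matrix.of ![z₁, z₂, z₃])ᵀ = (1 : Matrix (Fin 3) (Fin 3) F) := by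
    ext i j
    rw [mul_apply]
    fin_cases i <;> fin_cases j <;>
      simp [k, h.n1, h.n2, h.n3, h.p12, h.p13, h.p23, h.p21, h.p31, h.p32]
  have h4 : g.1.1 * (Matrix.of ![z₁, z₂, z₃])ᵀ =
      (Matrix.of ![z₁, z₂, z₃])ᵀ * !![a, 0, 0; 0, b, 0; 0, 0, c] := by
    ext i j
    have e1 := congrFun h1 i
    have e2 := congrFun h2 i
    have e3 := congrFun h3 i
    simp only [ac, mulVec, dotProduct, Fin.sum_univ_three, Pi.smul_apply, smul_eq_mul] at e1 e2 e3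
    fin_cases j <;> simp [mul_apply, Fin.sum_univ_three]
    · linear_combination e1
    · linear_combination e2
    · linear_combination e3
  have h5 := congrArg Matrix.det h4
  have h6 := congrArg Matrix.det h0
  rw [det_mul, det_mul, g.1.2, one_mul] at h5
  rw [det_mul, det_one] at h6
  have h7 : ((Matrix.of ![z₁, z₂, z₃])ᵀ : Matrix (Fin 3) (Fin 3) F).det ≠ 0 := fun e0 => by
    rw [e0, mul_zero] at h6; exact zero_ne_one h6
  have h8 := mul_left_cancel₀ h7 ((mul_one _).trans h5)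
  rw [det_fin_three] at h8
  simpa using h8.symm

theorem u3_noniso_a (hB : Bin G Ω) {α : Ω} {w : V} (hw : ⟪w, w⟫ = 1)
    (h1 : Fx q w ≤ stabilizer G α) (h3 : stabilizer G α ≤ St q w) {μ : F} (hμ : μ * cj q μ = 1) :
    ∃ g : G, g • α = α ∧ ac g w = μ • w := by
  obtain ⟨z₁, z₂, hz⟩ := exists_ON hw
  obtain ⟨g₁, hg₁⟩ := exists_su_norm (q := q) (by norm_num) (hw.trans hz.n1.symm) (hw ▸ one_ne_zero)
  obtain ⟨g₂, hg₂⟩ := exists_su_norm (q := q) (by norm_num) (hw.trans hz.n2.symm) (hw ▸ one_ne_zero)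
  replace hg₁ : ac g₁ w = z₁ := hg₁
  replace hg₂ : ac g₂ w = z₂ := hg₂
  have hμ0 : μ ≠ 0 := left_ne_zero_of_mul (hμ ▸ one_ne_zero)
  have hμ' : μ⁻¹ * cj q μ⁻¹ = 1 := by rw [map_inv₀, ← mul_inv, hμ, inv_one]
  have o1 : (1 : F) * cj q 1 = 1 := by simp
  obtain ⟨a, a1, a2, a3⟩ := exists_diag (hz.n1 ▸ one_ne_zero) (hz.n2 ▸ one_ne_zero)
    (hz.n3 ▸ one_ne_zero) hz.p12 hz.p13 hz.p23 o1 hμ' (c := μ) (by field_simp)
  obtain ⟨b, b1, b2, b3⟩ := exists_diag (hz.n1 ▸ one_ne_zero) (hz.n2 ▸ one_ne_zero)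
    (hz.n3 ▸ one_ne_zero) hz.p12 hz.p13 hz.p23 hμ' o1 (c := μ) (by field_simp)
  obtain ⟨k, k1, k2, k3⟩ := hB.tri (α := g₁ • α) (β := g₂ • α) (γ := α) (a := a) (b := b)
    (smul_smul_eq_iff.mpr (h1 (by rw [conj_mem_Fx, hg₁, mem_Fx, a1, one_smul])))
    (smul_smul_eq_iff.mpr (h1 (by rw [conj_mem_Fx, hg₂, mem_Fx, b2, one_smul])))
    (by
      rw [← inv_smul_eq_iff, ← mul_smul]
      refine h1 (mem_Fx.mpr ?_)
      rw [ac_mul, a3, ← b3, ac_inv_ac])
  rw [smul_smul_eq_iff] at k1 k2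
  have k4 : (a⁻¹ * k) • α = α := by rw [mul_smul, k3, inv_smul_smul]
  obtain ⟨m₁, e₁⟩ := mem_St.mp (h3 k1)
  obtain ⟨m₂, e₂⟩ := mem_St.mp (h3 k2)
  obtain ⟨m₃, e₃⟩ := mem_St.mp (h3 k4)
  have c₁ : ac k z₁ = m₁ • z₁ := by
    rw [ac_mul, ac_mul, hg₁] at e₁
    rw [← ac_ac_inv g₁ (ac k z₁), e₁, ac_smul, hg₁]
  have c₂ : ac k z₂ = m₂ • z₂ := by
    rw [ac_mul, ac_mul, hg₂] at e₂
    rw [← ac_ac_inv g₂ (ac k z₂), e₂, ac_smul, hg₂]
  have c₃ : ac k w = (m₃ * μ) • w := by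
    rw [ac_mul] at e₃
    rw [← ac_ac_inv a (ac k w), e₃, ac_smul, a3, smul_smul]
  have hd := hz.det c₁ c₂ c₃
  refine ⟨(g₁⁻¹ * k * g₁ * (g₂⁻¹ * k * g₂) * (a⁻¹ * k))⁻¹, (stabilizer G α).inv_mem
    ((stabilizer G α).mul_mem ((stabilizer G α).mul_mem k1 k2) k4), ?_⟩
  have : ac (g₁⁻¹ * k * g₁ * (g₂⁻¹ * k * g₂) * (a⁻¹ * k)) w = μ⁻¹ • w := by
    rw [ac_mul, e₃, ac_smul, ac_mul, e₂, ac_smul, e₁, smul_smul, smul_smul]
    congr 1
    field_simp
    linear_combination hd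
  rw [ac_inv_of (inv_ne_zero hμ0) this, inv_inv]

theorem u3_noniso (h2 : (2 : F) = 0) (hq : 3 ≤ q) (hB : Bin G Ω) {α : Ω} {w : V} (hw : ⟪w, w⟫ = 1)
    (h1 : Fx q w ≤ stabilizer G α) (h3 : stabilizer G α ≤ St q w) : False := by
  have hw0 := ne_zero_of_norm hw
  have h4 : St q w ≤ stabilizer G α := by
    rintro g ⟨μ, hμ⟩
    obtain ⟨x, hx, e⟩ := u3_noniso_a hB hw h1 h3 (μ := μ)
      (norm_of_smul hw (by rw [← hμ, form_ac, hw]))
    have : x⁻¹ * g ∈ Fx q w := by rw [mem_Fx, ac_mul, hμ, ← e, ac_inv_ac]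
    simpa using (stabilizer G α).mul_mem hx (h1 this)
  have pt : ∀ v : V, ⟪v, v⟫ ≠ 0 → ∃ d : G, ∀ g : G, g • d • α = d • α ↔ g ∈ St q v := by
    intro v hv
    obtain ⟨ρ, hρ0, hρ⟩ := exists_norm_one hv
    obtain ⟨d, hd⟩ := exists_su_norm (q := q) (by norm_num) (hw.trans hρ.symm) (hw ▸ one_ne_zero)
    replace hd : ac d w = ρ • v := hd
    refine ⟨d, fun g => ?_⟩
    rw [smul_smul_eq_iff, ← St_smul hρ0, ← hd, ← conj_mem_St]
    exact ⟨fun h => h3 h, fun h => h4 h⟩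
  obtain ⟨z₁, z₂, hz⟩ := exists_ON hw
  obtain ⟨s, hs, hs0, hs1⟩ := exists_fixed_ne (F := F) (q := q) (by omega) 1
  have hss : 1 + s * s ≠ 0 := fun e => hs1 (by
    have : (s - 1) ^ 2 = 0 := by linear_combination e - s * h2
    exact sub_eq_zero.mp (pow_eq_zero_iff two_ne_zero |>.mp this))
  obtain ⟨t, ht, htN⟩ : ∃ t : F, cj q t ≠ t ∧ 1 + t * cj q t ≠ 0 := by
    obtain ⟨t, ht⟩ := exists_cj_ne F q
    by_cases hN : 1 + t * cj q t = 0
    · refine ⟨s * t, fun e => ht (mul_left_cancel₀ hs0 (by rwa [map_mul, hs] at e)), fun e => hss ?_⟩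
      rw [map_mul, hs] at e
      linear_combination e - s * s * hN + s * s * h2
    · exact ⟨t, ht, hN⟩
  have ht0 : t ≠ 0 := by rintro rfl; simp at ht
  have ht' : cj q t ≠ 0 := cj_ne_zero.2 ht0
  have hA : 1 + t * s ≠ 0 := fun e => ht (by
    have e' := congrArg (cj q) e
    rw [map_add, map_mul, map_one, map_zero, hs] at e'
    exact mul_right_cancel₀ hs0 (by linear_combination e' - e))
  have hB' : s + t ≠ 0 := fun e => ht (by
    have e' := congrArg (cj q) e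
    rw [map_add, map_zero, hs] at e'
    linear_combination e' - e)
  have hA' : 1 + cj q t * s ≠ 0 := by
    have := (cj_ne_zero (q := q)).2 hA
    rwa [map_add, map_mul, map_one, hs] at this
  have hB'' : s + cj q t ≠ 0 := by
    have := (cj_ne_zero (q := q)).2 hB'
    rwa [map_add, hs] at this
  have hss2 : 1 + s ^ 2 ≠ 0 := by rwa [pow_two]
  have hA2 : 1 + s * t ≠ 0 := by rwa [mul_comm]
  have hA2' : 1 + s * cj q t ≠ 0 := by rwa [mul_comm]
  have fm : ∀ a b c d : F, ⟪a • z₁ + b • z₂, c • z₁ + d • z₂⟫ = a * cj q c + b * cj q d := by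
    intro a b c d
    simp only [form_add_left, form_add_right, form_smul_left, form_smul_right, hz.n1, hz.n2, hz.p12,
      hz.p21]
    ring
  have fw : ∀ a b : F, ⟪a • z₁ + b • z₂, w⟫ = 0 := by
    intro a b
    simp only [form_add_left, form_smul_left, hz.p13, hz.p23]
    ring
  obtain ⟨a, a1, a2, -⟩ := exists_diag (hz.n1 ▸ one_ne_zero) (hz.n2 ▸ one_ne_zero)
    (hz.n3 ▸ one_ne_zero) hz.p12 hz.p13 hz.p23 (a := 1) (b := cj q t / t) (c := t / cj q t)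
    (by simp) (by rw [map_div₀, cj_cj]; field_simp) (by field_simp)
  have nv : ⟪(1 : F) • z₁ + s • z₂, (1 : F) • z₁ + s • z₂⟫ ≠ 0 := by
    rw [fm, map_one, hs, mul_one]; exact hss
  obtain ⟨b, b1, b2, -⟩ := exists_diag (z₁ := (1 : F) • z₁ + s • z₂) (z₂ := s • z₁ + (1 : F) • z₂)
    (z₃ := w) nv (by rw [fm, map_one, hs, mul_one, add_comm]; exact hss) (hw ▸ one_ne_zero)
    (by rw [fm, map_one, hs]; linear_combination s * h2) (fw _ _) (fw _ _)
    (a := (1 + cj q t * s) / (1 + t * s)) (b := (s + cj q t) / (s + t))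
    (c := (1 + t * s) * (s + t) / ((1 + cj q t * s) * (s + cj q t)))
    (by simp only [map_div₀, map_add, map_mul, map_one, cj_cj, hs]; field_simp)
    (by simp only [map_div₀, map_add, cj_cj, hs]; field_simp) (by field_simp)
  have av : ac a ((1 : F) • z₁ + t • z₂) = (1 : F) • z₁ + cj q t • z₂ := by
    rw [ac_add, ac_smul, ac_smul, a1, a2]
    match_scalars <;> field_simp
  have bv : ac b ((1 : F) • z₁ + t • z₂) = (1 : F) • z₁ + cj q t • z₂ := by
    have e : (1 : F) • z₁ + t • z₂ = ((1 + t * s) / (1 + s * s)) • ((1 : F) • z₁ + s • z₂) +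
        ((s + t) / (1 + s * s)) • (s • z₁ + (1 : F) • z₂) := by
      match_scalars <;> field_simp
      · linear_combination (-t * s) * h2
      · linear_combination (-s) * h2
    rw [e, ac_add, ac_smul, ac_smul, b1, b2]
    match_scalars <;> field_simp
    · linear_combination (cj q t * s) * h2
    · linear_combination s * h2
  obtain ⟨d₁, hd₁⟩ := pt z₁ (hz.n1 ▸ one_ne_zero)
  obtain ⟨d₂, hd₂⟩ := pt _ nv
  obtain ⟨d₃, hd₃⟩ := pt ((1 : F) • z₁ + t • z₂) (by rw [fm, map_one, mul_one]; exact htN)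
  obtain ⟨k, k1, k2, k3⟩ := hB.tri ((hd₁ a).mpr ⟨_, a1⟩) ((hd₂ b).mpr ⟨_, b1⟩) (γ := d₃ • α) (by
    rw [← inv_smul_eq_iff, ← mul_smul, hd₃]
    exact ⟨1, by rw [ac_mul, av, ← bv, ac_inv_ac, one_smul F (_ + _)]⟩)
  obtain ⟨m₁, e₁⟩ := (hd₁ k).mp k1
  obtain ⟨m₂, e₂⟩ := (hd₂ k).mp k2
  rw [← inv_smul_eq_iff, ← mul_smul, hd₃] at k3
  obtain ⟨m₃, e₃⟩ := k3
  have e₃' : ac k ((1 : F) • z₁ + t • z₂) = m₃ • ((1 : F) • z₁ + cj q t • z₂) := by
    rw [ac_mul] at e₃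
    rw [← ac_ac_inv a (ac k _), e₃, ac_smul, av]
  have m0 : m₁ ≠ 0 := ne_zero_of_ac (ne_zero_of_norm hz.n1) e₁
  rw [ac_add, ac_smul, ac_smul, e₁] at e₂ e₃'
  have o := form_ac k z₂ z₁
  rw [e₁, form_smul_right, hz.p21, mul_eq_zero, cj_eq_zero] at o
  replace o := o.resolve_left m0
  have r1 := congrArg (fun v => ⟪v, z₁⟫) e₂
  have r2 := congrArg (fun v => ⟪v, z₂⟫) e₂
  have r3 := congrArg (fun v => ⟪v, z₁⟫) e₃'
  have r4 := congrArg (fun v => ⟪v, z₂⟫) e₃'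
  simp only [form_add_left, form_smul_left, hz.n1, hz.n2, hz.p12, hz.p21, o, mul_one, mul_zero,
    add_zero, zero_add, one_mul] at r1 r2 r3 r4
  apply ht
  have : ⟪ac k z₂, z₂⟫ = m₁ := mul_left_cancel₀ hs0 (by rw [r2, r1, mul_comm])
  rw [this, ← r3, mul_comm] at r4
  exact (mul_left_cancel₀ m0 r4).symm

theorem su3_oneCl (h2 : (2 : F) = 0) : OneCl G := by
  have key : ∀ s : G, orderOf s = 2 → ∃ e, Iso q e ∧ s = tv q e 1 := fun s hs => by
    obtain ⟨e, c, he, hc0, hc, rfl⟩ := invol_even h2 (H9.mul_self_of_orderOf_two hs)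
      (H9.ne_one_of_orderOf_two hs)
    obtain ⟨a, ha⟩ := exists_norm_eq (hc.trans (neg_self2 h2 c))
    have ha0 : a ≠ 0 := left_ne_zero_of_mul (ha ▸ hc0)
    refine ⟨a • e, he.smul ha0, ?_⟩
    rw [tv_smul he.2 ((map_one _).trans (neg_self2 h2 1).symm), ha, mul_one]
  intro s t hs ht
  obtain ⟨e, he, rfl⟩ := key s hs
  obtain ⟨e', he', rfl⟩ := key t ht
  obtain ⟨g, rfl⟩ := he.exists_ac he'
  exact isConj_iff.mpr ⟨g, conj_tv' g e 1⟩

theorem su3_even (h2 : (2 : F) = 0) (hq : 3 ≤ q) (hB : Bin G Ω) [Finite Ω]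
    (hZ : ∀ z ∈ Subgroup.center G, ∀ x : Ω, z • x = x) {α : Ω} (hα : stabilizer G α ≠ ⊤) {s : G}
    (hs : orderOf s = 2) (hsα : s • α = α) :
    ∃ e, Iso q e ∧ ∀ g : G, g • α = α ↔
      ∃ z ∈ Subgroup.center G, ∃ c, cj q c = c ∧ g = z * tv q e c := by
  obtain ⟨e, c, he, hc0, hc, rfl⟩ := invol_even h2 (H9.mul_self_of_orderOf_two hs)
    (H9.ne_one_of_orderOf_two hs)
  have hY : YY (stabilizer G α) e := by
    intro d hd
    have hd' := hd.trans (neg_self2 h2 d).symm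
    by_cases hd0 : d = 0
    · rw [hd0, tv_zero]; exact Subgroup.one_mem _
    refine hB.fix_of_commute (su3_oneCl h2) hs
      (H9.orderOf_eq_two_of_mul_self (fun e' => hd0 ((tv_eq_one_iff he hd').mp e')) ?_) ?_ hsα
    · rw [tv_mul he.2 hd' hd', ← two_mul, h2, zero_mul, tv_zero]
    · change _ * _ = _ * _
      rw [tv_mul he.2 hc hd', tv_mul he.2 hd' hc, add_comm]
  have hX : stabilizer G α ≤ St q e := by
    intro g hg
    by_contra hge
    have hne : ∀ a : F, ac g e ≠ a • e := fun a e' => hge ⟨a, e'⟩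
    have h0 := he.form_ne_zero (he.ac g) hne
    have h1 : ⟪e, ⟪ac g e, e⟫⁻¹ • ac g e⟫ = 1 :=
      form_eq_one_symm (by rw [form_smul_left, inv_mul_cancel₀ h0])
    obtain ⟨w, h⟩ := exists_fr_of_pair he.2 ((he.ac g).smul (inv_ne_zero h0)).2 h1
    have hf := (hY.act hg).smul h2 (he.ac g).2 ⟪ac g e, e⟫⁻¹
    exact u3_noniso h2 hq hB h.ww (Fx_le_of_YY h2 h hY hf) (le_St_of_YY h2 hq hα h hY hf)
  obtain ⟨w, f, h⟩ := he.exists_fr
  refine ⟨e, he, fun g => ⟨fun hg => ?_, ?_⟩⟩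
  · obtain ⟨z, hz, hz'⟩ := u3_cent h2 hB he hX hg
    have hx := u3_xx h2 hq hB hZ h hX hY hz' (by
      rw [mul_smul, hg, hZ _ ((Subgroup.center G).inv_mem hz)])
    refine ⟨z, hz, _, (h.cj_cc hz' hx).trans (neg_self2 h2 _), ?_⟩
    rw [← h.eq_tv hz' hx]; group
  · rintro ⟨z, hz, d, hd, rfl⟩
    rw [mul_smul, hY d hd, hZ z hz]

/-! ### the projective group -/

set_option hygiene false in
local notation "π" => QuotientGroup.mk' (Subgroup.center (SU 3 F q))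

theorem center_map_Fx (h2 : (2 : F) = 0) {e : V} (he : Iso q e) (x : PSU 3 F q) :
    x ∈ (Subgroup.center ((Fx q e).map π)).map ((Fx q e).map π).subtype ↔
      ∃ c, cj q c = c ∧ x = π (tv q e c) := by
  obtain ⟨w, f, h⟩ := he.exists_fr
  constructor
  · rintro ⟨⟨_, u, hu, rfl⟩, hc, rfl⟩
    have hcomm : ∀ v ∈ Fx q e, u * v = v * u := fun v hv => by
      have := congrArg Subtype.val (Subgroup.mem_center_iff.mp hc ⟨π v, v, hv, rfl⟩)
      change π v * π u = π u * π v at this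
      rw [← map_mul, ← map_mul, QuotientGroup.mk'_apply, QuotientGroup.mk'_apply,
        QuotientGroup.eq] at this
      have := eq_one_of_mem_center this he.1 ((Fx q e).mul_mem ((Fx q e).inv_mem
        ((Fx q e).mul_mem hv hu)) ((Fx q e).mul_mem hu hv))
      exact (inv_mul_eq_one.mp this).symm
    have hx : xx q w f u = 0 := by
      by_contra hx
      obtain ⟨ξ, hξ⟩ := exists_cj_ne F q
      obtain ⟨c, hc⟩ := exists_trace_eq (q := q) (cj_norm (xx q w f u * ξ))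
      obtain ⟨v, hv, vx, -⟩ := h.exists_Q (x := xx q w f u * ξ) (c := c) (by
        rw [hc, ← two_mul, h2, zero_mul])
      have := congrArg (cc q f) (hcomm v hv)
      rw [h.cc_mul hu hv, h.cc_mul hv hu, vx, map_mul] at this
      apply hξ
      refine mul_left_cancel₀ (mul_ne_zero hx ((cj_ne_zero (q := q)).2 hx)) ?_
      linear_combination this
    exact ⟨_, (h.cj_cc hu hx).trans (neg_self2 h2 _), congrArg π (h.eq_tv hu hx)⟩
  · rintro ⟨c, hc, rfl⟩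
    have hc' := hc.trans (neg_self2 h2 c).symm
    refine ⟨⟨_, tv q e c, tv_mem_Fx c he.2, rfl⟩, Subgroup.mem_center_iff.mpr ?_, rfl⟩
    rintro ⟨_, v, hv, rfl⟩
    apply Subtype.ext
    change π v * π (tv q e c) = π (tv q e c) * π v
    rw [← map_mul, ← map_mul]
    congr 1
    rw [← mul_inv_eq_iff_eq_mul, conj_tv', mem_Fx.mp hv]

theorem exists_sylow_Fx (h2 : (2 : F) = 0) {e : V} (he : Iso q e) :
    ∃ P : Sylow 2 (PSU 3 F q), (P : Subgroup (PSU 3 F q)) = (Fx q e).map π := by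
  have hchar : CharP F 2 := (CharP.charP_iff_prime_eq_zero Nat.prime_two).mpr h2
  exact ⟨(sylFx 2 he).mapSurjective (QuotientGroup.mk'_surjective _), rfl⟩

theorem exists_Fx_sylow (h2 : (2 : F) = 0) (P : Sylow 2 (PSU 3 F q)) :
    ∃ e, Iso q e ∧ (P : Subgroup (PSU 3 F q)) = (Fx q e).map π := by
  have hchar : CharP F 2 := (CharP.charP_iff_prime_eq_zero Nat.prime_two).mpr h2
  obtain ⟨P₀, rfl⟩ := Sylow.mapSurjective_surjective (QuotientGroup.mk'_surjective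
    (Subgroup.center G)) 2 P
  obtain ⟨e, he, hle⟩ := exists_le_Fx 2 P₀.isPGroup'
  refine ⟨e, he, ?_⟩
  rw [P₀.is_maximal' (isPGroup_Fx 2 he) hle]
  rfl

theorem psu3_bin_center (h2 : (2 : F) = 0) (P : Sylow 2 (PSU 3 F q)) :
    Bin (PSU 3 F q) (PSU 3 F q ⧸
      (Subgroup.center (P : Subgroup (PSU 3 F q))).map (P : Subgroup (PSU 3 F q)).subtype) := by
  obtain ⟨e, he, hP⟩ := exists_Fx_sylow h2 P
  rw [hP]
  have fx : ∀ {b : F}, cj q b = b → cj q b = -b := fun hb => by rw [neg_self2 h2, hb]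
  have sq : ∀ {v : V} {c : F}, ⟪v, v⟫ = 0 → cj q c = c → tv q v c * tv q v c = 1 :=
    fun hv hc => by rw [tv_mul hv (fx hc) (fx hc), ← two_mul, h2, zero_mul, tv_zero]
  refine bin_of_elem (fun x hx => ?_) (fun g a b h1 h3 ha hb hab => ?_)
  · obtain ⟨c, hc, rfl⟩ := (center_map_Fx h2 he x).mp hx
    rw [← map_mul, sq he.2 hc, map_one]
  obtain ⟨c, hc, rfl⟩ := (center_map_Fx h2 he _).mp ha
  obtain ⟨d, hd, e1⟩ := (center_map_Fx h2 he _).mp hb
  obtain ⟨g, rfl⟩ := QuotientGroup.mk'_surjective _ g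
  have e2 : b = π (tv q (ac g e) d) := by
    rw [← conj_tv', map_mul, map_mul, map_inv, ← e1]; group
  subst e2
  have hg : g ∈ St q e := by
    have h1' : tv q e c ≠ 1 := fun e' => h1 (by rw [e', map_one])
    have h3' : tv q (ac g e) d ≠ 1 := fun e' => h3 (by rw [e', map_one])
    rw [← map_mul, ← map_mul, QuotientGroup.mk'_apply, QuotientGroup.mk'_apply,
      QuotientGroup.eq] at hab
    obtain ⟨a, ha⟩ := mem_center_iff.mp hab
    have s1 := sq he.2 hc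
    have s2 := sq (he.ac g).2 hd
    have hbe : tv q (ac g e) d ∈ St q e := by
      have m1 : tv q e c ∈ St q (ac (tv q (ac g e) d) e) := by
        refine ⟨a⁻¹, ?_⟩
        have := ha e
        have a0 := ne_zero_of_ac he.1 this
        rw [ac_mul, ac_mul, mem_Fx.mp (tv_mem_Fx c he.2)] at this
        have := congrArg (ac (tv q e c * tv q (ac g e) d)) this
        rw [ac_ac_inv, ac_smul, ac_mul] at this
        conv_rhs => rw [this]
        rw [smul_smul, inv_mul_cancel₀ a0, one_smul]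
      exact eq_smul_of_fix he (he.ac _) (tv_mem_Fx c he.2) h1' m1
    obtain ⟨ρ, hρ⟩ := eq_smul_of_fix (he.ac g) he (tv_mem_Fx d (he.ac g).2) h3' hbe
    have hρ0 : ρ ≠ 0 := fun e' => he.1 (by rw [hρ, e', zero_smul])
    refine ⟨ρ⁻¹, ?_⟩
    conv_rhs => rw [hρ]
    rw [smul_smul, inv_mul_cancel₀ hρ0, one_smul]
  have norm : ∀ g ∈ St q e, ∀ x, x ∈ (Subgroup.center ((Fx q e).map π)).map
      ((Fx q e).map π).subtype → π g * x * (π g)⁻¹ ∈ (Subgroup.center ((Fx q e).map π)).map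
      ((Fx q e).map π).subtype := by
    rintro g ⟨l, hl⟩ x hx
    obtain ⟨c, hc, rfl⟩ := (center_map_Fx h2 he x).mp hx
    refine (center_map_Fx h2 he _).mpr ⟨l * cj q l * c, by rw [map_mul, cj_norm, hc], ?_⟩
    rw [← map_inv, ← map_mul, ← map_mul, conj_tv', hl, tv_smul he.2 (fx hc)]
  rw [Subgroup.mem_normalizer_iff]
  refine fun x => ⟨norm g hg x, fun hx => ?_⟩
  have := norm _ ((St q e).inv_mem hg) _ hx
  rw [map_inv] at this
  convert this using 1; group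

theorem psu3_of_bin (h2 : (2 : F) = 0) (hq : 3 ≤ q) {H : Subgroup (PSU 3 F q)} (hH : H ≠ ⊤)
    (hev : Even (Nat.card H)) (hB : Bin (PSU 3 F q) (PSU 3 F q ⧸ H)) :
    ∃ P : Sylow 2 (PSU 3 F q),
      H = (Subgroup.center (P : Subgroup (PSU 3 F q))).map (P : Subgroup (PSU 3 F q)).subtype := by
  let _ : MulAction G (PSU 3 F q ⧸ H) := MulAction.compHom _ π
  have hB' : Bin G (PSU 3 F q ⧸ H) := (bin_compHom π (QuotientGroup.mk'_surjective _)).mpr hB
  have st : ∀ g : G, g • (((1 : PSU 3 F q) : PSU 3 F q ⧸ H)) = (1 : PSU 3 F q) ↔ π g ∈ H := by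
    intro g
    change π g • (((1 : PSU 3 F q) : PSU 3 F q ⧸ H)) = _ ↔ _
    rw [← mem_stabilizer_iff, stab_one]
  obtain ⟨t, ht, ho⟩ := (H9.even_card_iff_exists_involution H).mp hev
  obtain ⟨s₀, rfl⟩ := QuotientGroup.mk'_surjective _ t
  have z3 : ∀ z ∈ Subgroup.center G, z ^ 3 = 1 := fun z hz => by
    have h1 := Subgroup.orderOf_dvd_natCard _ hz
    rw [card_center_SU (by norm_num)] at h1
    exact orderOf_dvd_iff_pow_eq_one.mp (h1.trans (Nat.gcd_dvd_left _ _))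
  have t2 := H9.mul_self_of_orderOf_two ho
  have e3 : π (s₀ ^ 3) = π s₀ := by rw [map_pow, pow_three, t2, mul_one]
  have hs : orderOf (s₀ ^ 3) = 2 := by
    refine H9.orderOf_eq_two_of_mul_self (fun e => H9.ne_one_of_orderOf_two ho ?_) ?_
    · rw [← e3, e, map_one]
    · rw [← map_mul, QuotientGroup.mk'_apply, QuotientGroup.eq_one_iff] at t2
      rw [← z3 _ t2, ← pow_two, ← pow_two, ← pow_mul, ← pow_mul]
  obtain ⟨e, he, hX⟩ := su3_even h2 hq hB' (fun z hz x => by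
      change π z • x = x
      rw [QuotientGroup.mk'_apply, (QuotientGroup.eq_one_iff z).mpr hz, one_smul])
    (α := ((1 : PSU 3 F q) : PSU 3 F q ⧸ H)) (fun e => hH (by
      rw [eq_top_iff]
      intro x _
      obtain ⟨g, rfl⟩ := QuotientGroup.mk'_surjective _ x
      exact (st g).mp (show g ∈ stabilizer G _ from e ▸ Subgroup.mem_top g)))
    hs ((st _).mpr (e3 ▸ ht))
  obtain ⟨P, hP⟩ := exists_sylow_Fx h2 he
  refine ⟨P, ?_⟩
  rw [hP]
  ext x
  obtain ⟨g, rfl⟩ := QuotientGroup.mk'_surjective _ x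
  rw [center_map_Fx h2 he, ← st, hX]
  constructor
  · rintro ⟨z, hz, c, hc, rfl⟩
    refine ⟨c, hc, ?_⟩
    rw [map_mul, QuotientGroup.mk'_apply _ z, (QuotientGroup.eq_one_iff z).mpr hz, one_mul]
  · rintro ⟨c, hc, e'⟩
    rw [QuotientGroup.mk'_apply, QuotientGroup.mk'_apply, eq_comm, QuotientGroup.eq] at e'
    refine ⟨_, e', c, hc, ?_⟩
    rw [← Subgroup.mem_center_iff.mp e']; group

end H41.BA
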